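import Mathlib

/-!
# S4150, piece IDX6 (helper53 for helper43): a subgroup of index 6 of `A₆` is `A₅`
-/

set_option autoImplicit false

open Equiv Equiv.Perm

namespace Cfsg.Agent.H53.Tw

/-- a subgroup of order 60 of `alternatingGroup X`, `|X| = 6`, fixing a point is `A₅`. -/
theorem idx6_stab {X : Type*} [Fintype X] [DecidableEq X] (hX : Fintype.card X = 6) (x₀ : X)
    (L : Subgroup (alternatingGroup X)) (hL : Nat.card L = 60)
    (hfix : ∀ g ∈ L, (g : Perm X) x₀ = x₀) : Nonempty (L ≃* alternatingGroup (Fin 5)) := by
  have h5 : Fintype.card {x : X // x ≠ x₀} = 5 := by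
    have h1 := Fintype.card_subtype_compl (fun x : X => x = x₀)
    rw [Fintype.card_subtype_eq, hX] at h1
    exact h1
  have : Nontrivial {x : X // x ≠ x₀} :=
    Fintype.one_lt_card_iff_nontrivial.mp (by rw [h5]; norm_num)
  have hmem : ∀ f : alternatingGroup {x : X // x ≠ x₀},
      ofSubtype (f : Perm {x : X // x ≠ x₀}) ∈ alternatingGroup X := by
    intro f
    rw [Equiv.Perm.mem_alternatingGroup, sign_ofSubtype]
    exact Equiv.Perm.mem_alternatingGroup.mp f.2
  let ψ : alternatingGroup {x : X // x ≠ x₀} →* alternatingGroup X :=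
    ((ofSubtype : Perm {x : X // x ≠ x₀} →* Perm X).comp
      (alternatingGroup {x : X // x ≠ x₀}).subtype).codRestrict (alternatingGroup X) hmem
  have hψ : ∀ f, ((ψ f : alternatingGroup X) : Perm X) =
      ofSubtype (f : Perm {x : X // x ≠ x₀}) := fun f => rfl
  have hψinj : Function.Injective ψ := by
    intro f g hfg
    have h1 : ofSubtype (f : Perm {x : X // x ≠ x₀}) = ofSubtype (g : Perm {x : X // x ≠ x₀}) := by
      rw [← hψ, ← hψ, hfg]
    exact Subtype.ext (ofSubtype_injective h1)
  have hle : L ≤ ψ.range := by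
    intro g hg
    have hg0 := hfix g hg
    have key : ∀ x, (g : Perm X) x ≠ x₀ ↔ x ≠ x₀ := by
      intro x
      constructor
      · intro h hx
        rw [hx] at h
        exact h hg0
      · intro h hx
        apply h
        apply (g : Perm X).injective
        rw [hx, hg0]
    have key2 : ∀ x, (g : Perm X) x ≠ x → x ≠ x₀ := by
      intro x h hx
      rw [hx] at h
      exact h hg0
    have h1 : ofSubtype ((g : Perm X).subtypePerm key) = (g : Perm X) :=
      ofSubtype_subtypePerm key key2
    have h2 : (g : Perm X).subtypePerm key ∈ alternatingGroup {x : X // x ≠ x₀} := by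
      rw [Equiv.Perm.mem_alternatingGroup, ← sign_ofSubtype, h1]
      exact Equiv.Perm.mem_alternatingGroup.mp g.2
    refine ⟨⟨_, h2⟩, ?_⟩
    apply Subtype.ext
    rw [hψ]
    exact h1
  have hcard : Nat.card ψ.range = 60 := by
    rw [← Nat.card_congr (MonoidHom.ofInjective hψinj).toEquiv, nat_card_alternatingGroup,
      Nat.card_eq_fintype_card, h5]
    rfl
  have heq : L = ψ.range := by
    apply Subgroup.eq_of_le_of_card_ge hle
    rw [hcard, hL]
  have e1 : L ≃* ψ.range := MulEquiv.subgroupCongr heq
  have e2 : alternatingGroup {x : X // x ≠ x₀} ≃* ψ.range := MonoidHom.ofInjective hψinj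
  have e3 : alternatingGroup {x : X // x ≠ x₀} ≃* alternatingGroup (Fin 5) :=
    Equiv.altCongrHom (Fintype.equivFinOfCardEq h5)
  exact ⟨e1.trans (e2.symm.trans e3)⟩

theorem alt6_index6 {α : Type*} [Fintype α] [DecidableEq α] (hcard : Fintype.card α = 6)
    (K : Subgroup (alternatingGroup α)) (hK : K.index = 6) :
    Nonempty (K ≃* alternatingGroup (Fin 5)) := by
  classical
  have : Nontrivial α := Fintype.one_lt_card_iff_nontrivial.mp (by rw [hcard]; norm_num)
  have hsimple : IsSimpleGroup (alternatingGroup α) :=
    alternatingGroup.isSimpleGroup (by rw [Nat.card_eq_fintype_card, hcard]; norm_num)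
  have hA : Nat.card (alternatingGroup α) = 360 := by
    rw [nat_card_alternatingGroup, Nat.card_eq_fintype_card, hcard]
    rfl
  have hKcard : Nat.card K = 60 := by
    have h1 := K.card_mul_index
    rw [hK, hA] at h1
    omega
  haveI : Fintype (alternatingGroup α ⧸ K) := Fintype.ofFinite _
  have hXcard : Fintype.card (alternatingGroup α ⧸ K) = 6 := by
    rw [← Nat.card_eq_fintype_card]
    exact hK
  let φ : alternatingGroup α →* Perm (alternatingGroup α ⧸ K) :=
    MulAction.toPermHom (alternatingGroup α) (alternatingGroup α ⧸ K)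
  have hφker : φ.ker = ⊥ := by
    have h1 : K.normalCore = φ.ker := Subgroup.normalCore_eq_ker K
    rcases (φ.normal_ker).eq_bot_or_eq_top with h | h
    · exact h
    · exfalso
      have h2 : K.normalCore ≤ K := Subgroup.normalCore_le K
      rw [h1, h] at h2
      have h3 : K = ⊤ := top_le_iff.mp h2
      rw [h3, Subgroup.index_top] at hK
      omega
  have hφinj : Function.Injective φ := (MonoidHom.ker_eq_bot_iff φ).mp hφker
  have hsign : ∀ a, sign (φ a) = 1 := by
    have h2 : ((sign : Perm (alternatingGroup α ⧸ K) →* ℤˣ).comp φ).ker = ⊤ := by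
      rcases (MonoidHom.normal_ker ((sign : Perm (alternatingGroup α ⧸ K) →* ℤˣ).comp
        φ)).eq_bot_or_eq_top with h | h
      · exfalso
        have hinj : Function.Injective ((sign : Perm (alternatingGroup α ⧸ K) →* ℤˣ).comp φ) :=
          (MonoidHom.ker_eq_bot_iff _).mp h
        have h3 : Nat.card (alternatingGroup α) ≤ Nat.card ℤˣ :=
          Nat.card_le_card_of_injective _ hinj
        have h4 : Nat.card ℤˣ = 2 := by
          rw [Nat.card_eq_fintype_card]
          rfl
        rw [hA, h4] at h3
        omega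
      · exact h
    intro a
    have h3 : a ∈ ((sign : Perm (alternatingGroup α ⧸ K) →* ℤˣ).comp φ).ker := by
      rw [h2]
      trivial
    exact h3
  let φ' : alternatingGroup α →* alternatingGroup (alternatingGroup α ⧸ K) :=
    φ.codRestrict _ (fun a => Equiv.Perm.mem_alternatingGroup.mpr (hsign a))
  have hφ'inj : Function.Injective φ' := by
    intro a b hab
    apply hφinj
    exact congrArg Subtype.val hab
  have hL : Nat.card (K.map φ') = 60 := by
    rw [← Nat.card_congr (K.equivMapOfInjective φ' hφ'inj).toEquiv, hKcard]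
  have hfix : ∀ g ∈ K.map φ', (g : Perm (alternatingGroup α ⧸ K))
      (((1 : alternatingGroup α)) : alternatingGroup α ⧸ K) =
      (((1 : alternatingGroup α)) : alternatingGroup α ⧸ K) := by
    rintro g ⟨a, ha, rfl⟩
    have h1 : a ∈ MulAction.stabilizer (alternatingGroup α)
        (((1 : alternatingGroup α)) : alternatingGroup α ⧸ K) := by
      rw [MulAction.stabilizer_quotient]
      exact ha
    exact MulAction.mem_stabilizer_iff.mp h1
  obtain ⟨e⟩ := idx6_stab hXcard _ (K.map φ') hL hfix
  exact ⟨(K.equivMapOfInjective φ' hφ'inj).trans e⟩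

/-- verbatim check of the posted statement -/
example {α : Type*} [Fintype α] [DecidableEq α] (hcard : Fintype.card α = 6)
    (K : Subgroup (alternatingGroup α)) (hK : K.index = 6) :
    Nonempty (K ≃* alternatingGroup (Fin 5)) :=
  alt6_index6 hcard K hK

end Cfsg.Agent.H53.Tw
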