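import Mathlib

/-!
# S4150, piece TRANSFER (helper53 for helper43): restricting a 2-generated subgroup of `A_m`
to the union of the supports
-/

set_option autoImplicit false

open Equiv Equiv.Perm

namespace Cfsg.Agent.H53.Tw

/-- restriction of two permutations to a finset containing both supports. -/
theorem tw_restrict_aux {α : Type*} [Fintype α] [DecidableEq α] (x y : Perm α) (s : Finset α)
    (hxs : x.support ⊆ s) (hys : y.support ⊆ s) (hsu : s ⊆ x.support ∪ y.support) :
    ∃ σ τ : Perm ↥s, σ.cycleType = x.cycleType ∧ τ.cycleType = y.cycleType ∧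
      σ.support ∪ τ.support = Finset.univ ∧
      (Disjoint σ.support τ.support → Disjoint x.support y.support) ∧
      ofSubtype σ = x ∧ ofSubtype τ = y := by
  have key : ∀ z : Perm α, z.support ⊆ s → ∀ a, z a ∈ s ↔ a ∈ s := by
    intro z hz a
    by_cases ha : a ∈ z.support
    · exact ⟨fun _ => hz ha, fun _ => hz (Equiv.Perm.apply_mem_support.mpr ha)⟩
    · rw [Equiv.Perm.notMem_support.mp ha]
  have key2 : ∀ z : Perm α, z.support ⊆ s → ∀ a, z a ≠ a → a ∈ s :=
    fun z hz a ha => hz (Equiv.Perm.mem_support.mpr ha)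
  have hσ : ofSubtype (x.subtypePerm (key x hxs)) = x := ofSubtype_subtypePerm _ (key2 x hxs)
  have hτ : ofSubtype (y.subtypePerm (key y hys)) = y := ofSubtype_subtypePerm _ (key2 y hys)
  have hmem : ∀ (z : Perm α) (hz : z.support ⊆ s) (a : ↥s),
      a ∈ (z.subtypePerm (key z hz)).support ↔ (a : α) ∈ z.support := by
    intro z hz a
    rw [Equiv.Perm.mem_support, Equiv.Perm.mem_support, Ne, Ne, Subtype.ext_iff,
      subtypePerm_apply]
  refine ⟨x.subtypePerm (key x hxs), y.subtypePerm (key y hys), ?_, ?_, ?_, ?_, hσ, hτ⟩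
  · rw [← cycleType_ofSubtype, hσ]
  · rw [← cycleType_ofSubtype, hτ]
  · ext a
    simp only [Finset.mem_union, Finset.mem_univ, iff_true]
    rw [hmem x hxs, hmem y hys]
    exact Finset.mem_union.mp (hsu a.2)
  · intro hd
    rw [Finset.disjoint_left] at hd ⊢
    intro a hax hay
    exact hd ((hmem x hxs ⟨a, hxs hax⟩).mpr hax) ((hmem y hys ⟨a, hxs hax⟩).mpr hay)

theorem closure_coe {α : Type*} [Fintype α] [DecidableEq α] (x y : alternatingGroup α) :
    Nonempty (Subgroup.closure ({x, y} : Set (alternatingGroup α)) ≃*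
      Subgroup.closure ({(x : Perm α), (y : Perm α)} : Set (Perm α))) := by
  have h1 : (Subgroup.closure ({x, y} : Set (alternatingGroup α))).map
      (alternatingGroup α).subtype =
      Subgroup.closure ({(x : Perm α), (y : Perm α)} : Set (Perm α)) := by
    rw [MonoidHom.map_closure]
    congr 1
    rw [Set.image_pair]
    rfl
  exact ⟨(Subgroup.equivMapOfInjective _ _ (Subgroup.subtype_injective _)).trans
    (MulEquiv.subgroupCongr h1)⟩

theorem closure_restrict {α : Type*} [Fintype α] [DecidableEq α] (x y : alternatingGroup α) :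
    ∃ σ τ : Perm ↥((x : Perm α).support ∪ (y : Perm α).support),
      σ.cycleType = (x : Perm α).cycleType ∧ τ.cycleType = (y : Perm α).cycleType ∧
      σ.support ∪ τ.support = Finset.univ ∧
      (Disjoint σ.support τ.support → Disjoint (x : Perm α).support (y : Perm α).support) ∧
      Nonempty (Subgroup.closure ({x, y} : Set (alternatingGroup α)) ≃*
        Subgroup.closure ({σ, τ} : Set (Perm ↥((x : Perm α).support ∪ (y : Perm α).support)))) := by
  obtain ⟨σ, τ, h1, h2, h3, h4, hσ, hτ⟩ := tw_restrict_aux (x : Perm α) (y : Perm α)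
    ((x : Perm α).support ∪ (y : Perm α).support) Finset.subset_union_left
    Finset.subset_union_right (Finset.Subset.refl _)
  refine ⟨σ, τ, h1, h2, h3, h4, ?_⟩
  obtain ⟨e1⟩ := closure_coe x y
  have h5 : (Subgroup.closure ({σ, τ} : Set (Perm ↥((x : Perm α).support ∪
      (y : Perm α).support)))).map (ofSubtype : Perm ↥((x : Perm α).support ∪
      (y : Perm α).support) →* Perm α) =
      Subgroup.closure ({(x : Perm α), (y : Perm α)} : Set (Perm α)) := by
    rw [MonoidHom.map_closure]
    congr 1
    rw [Set.image_pair, hσ, hτ]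
  exact ⟨e1.trans ((Subgroup.equivMapOfInjective _ _ ofSubtype_injective).trans
    (MulEquiv.subgroupCongr h5)).symm⟩

/-- verbatim check of the posted statements -/
example {α : Type*} [Fintype α] [DecidableEq α] (x y : alternatingGroup α) :
    ∃ σ τ : Perm ↥((x : Perm α).support ∪ (y : Perm α).support),
      σ.cycleType = (x : Perm α).cycleType ∧ τ.cycleType = (y : Perm α).cycleType ∧
      σ.support ∪ τ.support = Finset.univ ∧
      (Disjoint σ.support τ.support → Disjoint (x : Perm α).support (y : Perm α).support) ∧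
      Nonempty (Subgroup.closure ({x, y} : Set (alternatingGroup α)) ≃*
        Subgroup.closure ({σ, τ} : Set (Perm ↥((x : Perm α).support ∪ (y : Perm α).support)))) :=
  closure_restrict x y

example {α : Type*} [Fintype α] [DecidableEq α] (x y : alternatingGroup α) :
    Nonempty (Subgroup.closure ({x, y} : Set (alternatingGroup α)) ≃*
      Subgroup.closure ({(x : Perm α), (y : Perm α)} : Set (Perm α))) :=
  closure_coe x y

end Cfsg.Agent.H53.Tw
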