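import Mathlib

/-!
# helper53: three Mathlib-only pieces for S3413 (commuting graph of `M11`), for helper93
-/

set_option autoImplicit false

namespace Cfsg.Agent.H53.CgM11

open Subgroup
open scoped Pointwise

/-- A subtype containing `a` is `Option` of its trace on `{b // b ≠ a}`. -/
theorem nonempty_equiv_option {α : Type*} (a : α) (P : α → Prop) (ha : P a) :
    Nonempty ({b // P b} ≃ Option {c : {b // b ≠ a} // P c.1}) := by
  classical
  refine ⟨((Equiv.optionSubtypeNe (⟨a, ha⟩ : {b // P b})).symm).trans (Equiv.optionCongr ?_)⟩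
  exact
    { toFun := fun c => ⟨⟨c.1.1, fun h => c.2 (Subtype.ext h)⟩, c.1.2⟩
      invFun := fun c => ⟨⟨c.1.1, c.2⟩, fun h => c.1.2 (congrArg Subtype.val h)⟩
      left_inv := fun _ => rfl
      right_inv := fun _ => rfl }

theorem card_eq_of_equiv_ne_one {H M : Type*} [Group H] [Group M]
    (f : {h : H // h ≠ 1} ≃ {g : M // g ≠ 1}) : Nat.card H = Nat.card M := by
  classical
  exact Nat.card_congr ((Equiv.optionSubtypeNe (1 : H)).symm.trans
    ((Equiv.optionCongr f).trans (Equiv.optionSubtypeNe (1 : M))))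

theorem card_centralizer_of_commuting_equiv {H M : Type*} [Group H] [Group M]
    (f : {h : H // h ≠ 1} ≃ {g : M // g ≠ 1})
    (hf : ∀ x y : {h : H // h ≠ 1}, (x : H) * y = y * x ↔ ((f x) : M) * (f y) = (f y) * (f x))
    (x : {h : H // h ≠ 1}) :
    Nat.card (centralizer ({(x : H)} : Set H)) =
      Nat.card (centralizer ({((f x) : M)} : Set M)) := by
  classical
  obtain ⟨e1⟩ := nonempty_equiv_option (1 : H) (fun h => h ∈ centralizer ({(x : H)} : Set H))
    (one_mem _)
  obtain ⟨e2⟩ := nonempty_equiv_option (1 : M) (fun g => g ∈ centralizer ({((f x) : M)} : Set M))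
    (one_mem _)
  have e3 : {c : {b : H // b ≠ 1} // c.1 ∈ centralizer ({(x : H)} : Set H)} ≃
      {c : {b : M // b ≠ 1} // c.1 ∈ centralizer ({((f x) : M)} : Set M)} :=
    f.subtypeEquiv (fun y => by
      rw [mem_centralizer_singleton_iff, mem_centralizer_singleton_iff]
      constructor
      · intro h; exact ((hf x y).mp h.symm).symm
      · intro h; exact ((hf x y).mpr h.symm).symm)
  exact Nat.card_congr (e1.trans ((Equiv.optionCongr e3).trans e2.symm))

theorem no_order_eleven_mul_of_centralizer {H : Type*} [Group H] [Finite H]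
    (hH : Nat.card H = 7920) (h : H) (hh1 : h ≠ 1)
    (hh : Nat.card (centralizer ({h} : Set H)) = 11)
    (b : ℕ) (hb : b.Prime) (hb11 : b ≠ 11) : ¬ ∃ g : H, orderOf g = 11 * b := by
  rintro ⟨g, hg⟩
  have hp11 : Nat.Prime 11 := by norm_num
  have : Fact (Nat.Prime 11) := ⟨hp11⟩
  have hhC : h ∈ centralizer ({h} : Set H) := mem_centralizer_singleton_iff.mpr rfl
  have hoh : orderOf h = 11 := by
    have h1 : orderOf (⟨h, hhC⟩ : centralizer ({h} : Set H)) ∣ 11 := hh ▸ orderOf_dvd_natCard _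
    rw [Subgroup.orderOf_mk] at h1
    rcases (Nat.dvd_prime hp11).mp h1 with h3 | h3
    · exact absurd (orderOf_eq_one_iff.mp h3) hh1
    · exact h3
  set u := g ^ b with hu
  have hou : orderOf u = 11 := by
    rw [hu, orderOf_pow_of_dvd hb.ne_zero (by rw [hg]; exact dvd_mul_left b 11), hg,
      Nat.mul_div_cancel _ hb.pos]
  have hfact : (7920 : ℕ).factorization 11 = 1 := by
    have h1 : (7920 : ℕ) = 11 ^ 1 * 720 := by norm_num
    rw [h1, Nat.factorization_mul (by norm_num) (by norm_num), Finsupp.add_apply,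
      Nat.Prime.factorization_pow hp11, Finsupp.single_eq_same,
      Nat.factorization_eq_zero_of_not_dvd (by norm_num)]
  have hP : IsPGroup 11 (zpowers h) :=
    IsPGroup.of_card (n := 1) (by rw [Nat.card_zpowers, hoh, pow_one])
  have hQ : IsPGroup 11 (zpowers u) :=
    IsPGroup.of_card (n := 1) (by rw [Nat.card_zpowers, hou, pow_one])
  obtain ⟨P, hPle⟩ := hP.exists_le_sylow
  obtain ⟨Q, hQle⟩ := hQ.exists_le_sylow
  have hPc : Nat.card P = 11 := by rw [Sylow.card_eq_multiplicity, hH, hfact, pow_one]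
  have hQc : Nat.card Q = 11 := by rw [Sylow.card_eq_multiplicity, hH, hfact, pow_one]
  have hPeq : zpowers h = (P : Subgroup H) :=
    Subgroup.eq_of_le_of_card_ge hPle (by rw [hPc, Nat.card_zpowers, hoh])
  have hQeq : zpowers u = (Q : Subgroup H) :=
    Subgroup.eq_of_le_of_card_ge hQle (by rw [hQc, Nat.card_zpowers, hou])
  obtain ⟨c, hc⟩ := MulAction.exists_smul_eq H P Q
  have hmem : c * h * c⁻¹ ∈ (Q : Subgroup H) := by
    have h1 : MulAut.conj c • h ∈ MulAut.conj c • (P : Subgroup H) :=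
      Subgroup.smul_mem_pointwise_smul _ _ _ (hPeq ▸ mem_zpowers h)
    rw [← Sylow.pointwise_smul_def, ← Sylow.smul_def, hc] at h1
    simpa [MulAut.smul_def] using h1
  rw [← hQeq] at hmem
  obtain ⟨j, hj⟩ := mem_zpowers_iff.mp hmem
  have hcomm : g * (c * h * c⁻¹) = (c * h * c⁻¹) * g := by
    rw [← hj, hu]
    exact (((Commute.refl g).pow_right b).zpow_right j).eq
  have hmemC : c⁻¹ * g * c ∈ centralizer ({h} : Set H) := by
    rw [mem_centralizer_singleton_iff]
    calc c⁻¹ * g * c * h = c⁻¹ * (g * (c * h * c⁻¹)) * c := by group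
      _ = c⁻¹ * ((c * h * c⁻¹) * g) * c := by rw [hcomm]
      _ = h * (c⁻¹ * g * c) := by group
  have hord : orderOf (c⁻¹ * g * c) = 11 * b := by
    rw [← hg]
    have := orderOf_injective (MulAut.conj c⁻¹).toMonoidHom (MulAut.conj c⁻¹).injective g
    simpa using this
  have hdvd : 11 * b ∣ 11 := by
    have h1 : orderOf (⟨c⁻¹ * g * c, hmemC⟩ : centralizer ({h} : Set H)) ∣ 11 :=
      hh ▸ orderOf_dvd_natCard _
    rw [Subgroup.orderOf_mk, hord] at h1
    exact h1
  have hb1 : b ∣ 1 := by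
    have h2 : 11 * b ∣ 11 * 1 := by simpa using hdvd
    exact (Nat.mul_dvd_mul_iff_left (by norm_num : 0 < 11)).mp h2
  exact hb.one_lt.ne' (Nat.dvd_one.mp hb1)

example {H : Type*} [Group H] [Finite H]
    (hH : Nat.card H = 7920) (h : H) (hh1 : h ≠ 1)
    (hh : Nat.card (centralizer ({h} : Set H)) = 11)
    (b : ℕ) (hb : b.Prime) (hb11 : b ≠ 11) : ¬ ∃ g : H, orderOf g = 11 * b :=
  no_order_eleven_mul_of_centralizer hH h hh1 hh b hb hb11

example {H M : Type*} [Group H] [Group M]
    (f : {h : H // h ≠ 1} ≃ {g : M // g ≠ 1})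
    (hf : ∀ x y : {h : H // h ≠ 1}, (x : H) * y = y * x ↔ ((f x) : M) * (f y) = (f y) * (f x))
    (x : {h : H // h ≠ 1}) :
    Nat.card (centralizer ({(x : H)} : Set H)) =
      Nat.card (centralizer ({((f x) : M)} : Set M)) :=
  card_centralizer_of_commuting_equiv f hf x

example {H M : Type*} [Group H] [Group M]
    (f : {h : H // h ≠ 1} ≃ {g : M // g ≠ 1}) : Nat.card H = Nat.card M :=
  card_eq_of_equiv_ne_one f

end Cfsg.Agent.H53.CgM11
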