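import Mathlib
import Cfsg.Agent.H6.DcDefs

/-!
# DC-ACT (helper6's project S2132): `bimg` is an action on the bisections (helper53)
-/

set_option autoImplicit false

namespace Cfsg.Agent.H53.Dc

open Equiv Cfsg.Agent.H6.Dc

theorem map_compl_perm (σ : Perm (Fin 8)) (T : Finset (Fin 8)) :
    (Tᶜ).map σ.toEmbedding = (T.map σ.toEmbedding)ᶜ := by
  ext x
  simp [Finset.mem_map_equiv, Finset.mem_compl]

theorem map_mul_perm (σ τ : Perm (Fin 8)) (S : Finset (Fin 8)) :
    S.map (σ * τ).toEmbedding = (S.map τ.toEmbedding).map σ.toEmbedding := by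
  ext x
  rw [Finset.mem_map_equiv, Finset.mem_map_equiv, Finset.mem_map_equiv]
  exact Iff.rfl

theorem bimg_mul (σ τ : Perm (Fin 8)) (S : Finset (Fin 8)) :
    bimg (σ * τ) S = bimg σ (bimg τ S) := by
  unfold bimg
  rw [map_mul_perm]
  by_cases h : (0 : Fin 8) ∈ S.map τ.toEmbedding
  · rw [if_pos h]
  · rw [if_neg h, map_compl_perm]
    by_cases h' : (0 : Fin 8) ∈ (S.map τ.toEmbedding).map σ.toEmbedding
    · rw [if_pos h', if_neg (by simpa [Finset.mem_compl] using h'), compl_compl]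
    · rw [if_neg h', if_pos (by simpa [Finset.mem_compl] using h')]

/-- piece DC-ACT. -/
theorem act : StAct := by
  refine ⟨?_, ?_, ?_⟩
  · rintro σ ⟨S, hS, h0⟩
    show (bimg σ S).card = 4 ∧ (0 : Fin 8) ∈ bimg σ S
    unfold bimg
    by_cases h : (0 : Fin 8) ∈ S.map σ.toEmbedding
    · rw [if_pos h]
      exact ⟨by rw [Finset.card_map, hS], h⟩
    · rw [if_neg h]
      refine ⟨?_, Finset.mem_compl.mpr h⟩
      rw [Finset.card_compl, Finset.card_map, hS]
      rfl
  · rintro ⟨S, hS, h0⟩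
    show bimg 1 S = S
    unfold bimg
    have e : S.map (1 : Perm (Fin 8)).toEmbedding = S := by
      ext x
      rw [Finset.mem_map_equiv]
      exact Iff.rfl
    rw [e, if_pos h0]
  · intro σ τ S
    exact bimg_mul σ τ S.1

example : Cfsg.Agent.H6.Dc.StAct := act

end Cfsg.Agent.H53.Dc
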