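import Mathlib
import Cfsg.Agent.H6.DcDefs

/-!
# DC-BCARD (helper6's project S2132): there are 35 bisections (helper53)
-/

set_option autoImplicit false

namespace Cfsg.Agent.H53.Dc

open Equiv Cfsg.Agent.H6.Dc

set_option maxRecDepth 100000 in
/-- piece DC-BCARD. -/
theorem bcard : StBCard := by
  unfold StBCard
  decide

example : Cfsg.Agent.H6.Dc.StBCard := bcard

end Cfsg.Agent.H53.Dc
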