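import Mathlib
import Cfsg.Agent.H83.PCDefs

/-!
# PC-STAB (helper53, for helper83)

The stabilizer of `e0` in `Sp(4,3)` is isomorphic to the model `M0 = Heis ⋊ SL(2,3)`:
explicit parametrization.  In the basis `(e, p | f, q) = (inl 0, inl 1 | inr 0, inr 1)` the element
`(h, g)` is mapped to the matrix with blocks `mA`, `mB`, `mC`, `mD` below.
-/

set_option autoImplicit false
set_option linter.unusedSimpArgs false
set_option linter.unnecessarySeqFocus false
set_option linter.unreachableTactic false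
set_option linter.unusedTactic false

namespace Cfsg.Agent.H53.PC

open Matrix Cfsg.Agent.H83.PC

/-- Upper left block. -/
def mA (h : Heis) (g : SL23) : Matrix (Fin 2) (Fin 2) (ZMod 3) :=
  !![1, g.1 0 0 * h.b - g.1 1 0 * h.a; 0, g.1 0 0]

/-- Upper right block. -/
def mB (h : Heis) (g : SL23) : Matrix (Fin 2) (Fin 2) (ZMod 3) :=
  !![h.z, g.1 0 1 * h.b - g.1 1 1 * h.a; -h.a, g.1 0 1]

/-- Lower left block. -/
def mC (_h : Heis) (g : SL23) : Matrix (Fin 2) (Fin 2) (ZMod 3) :=
  !![0, 0; 0, g.1 1 0]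

/-- Lower right block. -/
def mD (h : Heis) (g : SL23) : Matrix (Fin 2) (Fin 2) (ZMod 3) :=
  !![1, 0; -h.b, g.1 1 1]

theorem stab_mem (h : Heis) (g : SL23) :
    fromBlocks (mA h g) (mB h g) (mC h g) (mD h g) ∈ symplecticGroup (Fin 2) (ZMod 3) := by
  rw [SymplecticGroup.fromBlocks_mem_iff]
  have hd := sl_det g
  refine ⟨?_, ?_, ?_⟩
  · ext i j
    fin_cases i <;> fin_cases j <;>
      simp [mA, mC, Matrix.mul_apply, Fin.sum_univ_two] <;> ring
  · ext i j
    fin_cases i <;> fin_cases j <;>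
      simp [mB, mD, Matrix.mul_apply, Fin.sum_univ_two] <;> ring
  · ext i j
    fin_cases i <;> fin_cases j <;>
      simp [mA, mB, mC, mD, Matrix.mul_apply, Fin.sum_univ_two] <;> grind

/-- The parametrization as a function. -/
def stabFun (x : M0) : symplecticGroup (Fin 2) (ZMod 3) :=
  ⟨fromBlocks (mA x.left x.right) (mB x.left x.right) (mC x.left x.right) (mD x.left x.right),
    stab_mem x.left x.right⟩

theorem stabFun_coe (x : M0) : (stabFun x).1 =
    fromBlocks (mA x.left x.right) (mB x.left x.right) (mC x.left x.right) (mD x.left x.right) :=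
  rfl

theorem stabFun_mul (x y : M0) : stabFun (x * y) = stabFun x * stabFun y := by
  apply Subtype.ext
  show (stabFun (x * y)).1 = (stabFun x).1 * (stabFun y).1
  rw [stabFun_coe, stabFun_coe, stabFun_coe, Matrix.fromBlocks_multiply]
  have hd := sl_det x.right
  congr 1
  · ext i j
    fin_cases i <;> fin_cases j <;>
      simp [mA, mB, mC, mD, Matrix.mul_apply, Fin.sum_univ_two, SemidirectProduct.mul_left,
        SemidirectProduct.mul_right] <;> grind
  · ext i j
    fin_cases i <;> fin_cases j <;>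
      simp [mA, mB, mC, mD, Matrix.mul_apply, Fin.sum_univ_two, SemidirectProduct.mul_left,
        SemidirectProduct.mul_right] <;> grind
  · ext i j
    fin_cases i <;> fin_cases j <;>
      simp [mA, mB, mC, mD, Matrix.mul_apply, Fin.sum_univ_two, SemidirectProduct.mul_left,
        SemidirectProduct.mul_right] <;> grind
  · ext i j
    fin_cases i <;> fin_cases j <;>
      simp [mA, mB, mC, mD, Matrix.mul_apply, Fin.sum_univ_two, SemidirectProduct.mul_left,
        SemidirectProduct.mul_right] <;> grind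

theorem stabFun_one : stabFun 1 = 1 := by
  apply Subtype.ext
  show (stabFun 1).1 = (1 : Matrix (Fin 2 ⊕ Fin 2) (Fin 2 ⊕ Fin 2) (ZMod 3))
  rw [stabFun_coe, ← Matrix.fromBlocks_one]
  congr 1
  · ext i j
    fin_cases i <;> fin_cases j <;> simp [mA]
  · ext i j
    fin_cases i <;> fin_cases j <;> simp [mB]
  · ext i j
    fin_cases i <;> fin_cases j <;> simp [mC]
  · ext i j
    fin_cases i <;> fin_cases j <;> simp [mD]

theorem stabFun_mem (x : M0) : stabFun x ∈ Stab3 := by
  rw [mem_Stab3, stabFun_coe]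
  ext i
  rcases i with i | i <;> fin_cases i <;>
    simp [e0, Matrix.mulVec, dotProduct, Fintype.sum_sum_type, Fin.sum_univ_two, mA, mC,
      Pi.single_apply]

/-- The parametrization as a homomorphism into `Stab3`. -/
def stabHom : M0 →* ↥Stab3 where
  toFun x := ⟨stabFun x, stabFun_mem x⟩
  map_one' := Subtype.ext stabFun_one
  map_mul' x y := Subtype.ext (stabFun_mul x y)

theorem stabHom_coe (x : M0) : ((stabHom x : ↥Stab3) : symplecticGroup (Fin 2) (ZMod 3)) =
    stabFun x := rfl

theorem stabHom_injective : Function.Injective stabHom := by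
  intro x y hxy
  have h1 : (stabFun x).1 = (stabFun y).1 := by
    rw [← stabHom_coe, ← stabHom_coe, hxy]
  rw [stabFun_coe, stabFun_coe, Matrix.fromBlocks_inj] at h1
  obtain ⟨hA, hB, hC, hD⟩ := h1
  have a11 := congrFun (congrFun hA 1) 1
  have b00 := congrFun (congrFun hB 0) 0
  have b10 := congrFun (congrFun hB 1) 0
  have b11 := congrFun (congrFun hB 1) 1
  have c11 := congrFun (congrFun hC 1) 1
  have d10 := congrFun (congrFun hD 1) 0
  have d11 := congrFun (congrFun hD 1) 1
  simp [mA] at a11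
  simp [mB] at b00 b10 b11
  simp [mC] at c11
  simp [mD] at d10 d11
  apply SemidirectProduct.ext
  · exact Heis.ext b10 d10 b00
  · apply Subtype.ext
    ext i j
    fin_cases i <;> fin_cases j
    · exact a11
    · exact b11
    · exact c11
    · exact d11

theorem stabHom_surjective : Function.Surjective stabHom := by
  rintro ⟨⟨M, hM⟩, hS⟩
  rw [mem_Stab3] at hS
  change M *ᵥ e0 = e0 at hS
  obtain ⟨A, B, C, D, rfl⟩ : ∃ A B C D : Matrix (Fin 2) (Fin 2) (ZMod 3),
      M = fromBlocks A B C D :=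
    ⟨M.toBlocks₁₁, M.toBlocks₁₂, M.toBlocks₂₁, M.toBlocks₂₂, (Matrix.fromBlocks_toBlocks M).symm⟩
  have hM' := hM
  rw [SymplecticGroup.fromBlocks_mem_iff] at hM'
  obtain ⟨h1, h2, h3⟩ := hM'
  -- the first column
  have cA0 := congrFun hS (Sum.inl 0)
  have cA1 := congrFun hS (Sum.inl 1)
  have cC0 := congrFun hS (Sum.inr 0)
  have cC1 := congrFun hS (Sum.inr 1)
  simp [e0, Matrix.mulVec, dotProduct, Fintype.sum_sum_type, Fin.sum_univ_two,
    Pi.single_apply] at cA0 cA1 cC0 cC1
  -- the symplectic relations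
  have r1 := congrFun (congrFun h1 0) 1
  have r3a := congrFun (congrFun h3 0) 0
  have r3b := congrFun (congrFun h3 0) 1
  have r3c := congrFun (congrFun h3 1) 0
  have r3d := congrFun (congrFun h3 1) 1
  have r2 := congrFun (congrFun h2 1) 0
  simp [Matrix.mul_apply, Fin.sum_univ_two, cA0, cA1, cC0, cC1] at r1 r3a r3b r3c r3d r2
  have hdet : A 1 1 * D 1 1 - B 1 1 * C 1 1 = 1 := by
    rw [r1, r3b] at r3d
    simp at r3d
    linear_combination r3d
  obtain ⟨g, hg⟩ : ∃ g : SL23, g.1 = !![A 1 1, B 1 1; C 1 1, D 1 1] :=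
    ⟨⟨!![A 1 1, B 1 1; C 1 1, D 1 1], by rw [Matrix.det_fin_two]; simpa using hdet⟩, rfl⟩
  have g00 : g.1 0 0 = A 1 1 := by rw [hg]; rfl
  have g01 : g.1 0 1 = B 1 1 := by rw [hg]; rfl
  have g10 : g.1 1 0 = C 1 1 := by rw [hg]; rfl
  have g11 : g.1 1 1 = D 1 1 := by rw [hg]; rfl
  refine ⟨⟨⟨-B 1 0, -D 1 0, B 0 0⟩, g⟩, ?_⟩
  apply Subtype.ext
  apply Subtype.ext
  show (stabFun ⟨⟨-B 1 0, -D 1 0, B 0 0⟩, g⟩).1 = fromBlocks A B C D
  rw [stabFun_coe]
  congr 1
  · ext i j
    fin_cases i <;> fin_cases j <;> simp [mA, g00, g01, g10, g11, cA0, cA1] <;> grind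
  · ext i j
    fin_cases i <;> fin_cases j <;> simp [mB, g00, g01, g10, g11] <;> grind
  · ext i j
    fin_cases i <;> fin_cases j <;> simp [mC, g00, g01, g10, g11, cC0, cC1] <;> grind
  · ext i j
    fin_cases i <;> fin_cases j <;> simp [mD, g00, g01, g10, g11] <;> grind

/-- **PC-STAB**. -/
theorem stab : StStab :=
  ⟨MulEquiv.ofBijective stabHom ⟨stabHom_injective, stabHom_surjective⟩⟩

example : Cfsg.Agent.H83.PC.StStab := stab

end Cfsg.Agent.H53.PC
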