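import Mathlib
import Cfsg.Agent.H9.PGDefs

/-!
# S3662 piece PG-FPF (helper53 for helper9): the elements `W7`, `W13` have orders dividing 7, 13 and
fix no nonzero vector
-/

set_option autoImplicit false

namespace Cfsg.Agent.H53.PG

open Cfsg.Agent.H9.PG
open scoped Matrix

/-- the matrix of `W7` -/
def M7 : Matrix (Fin 6) (Fin 6) K4 :=
  Xc 7 Cfsg.Agent.H94.HS.F4.v * Xc 1 Cfsg.Agent.H94.HS.F4.w * Xc 8 Cfsg.Agent.H94.HS.F4.w

/-- the matrix of `W13` -/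
def M13 : Matrix (Fin 6) (Fin 6) K4 :=
  Xc 6 Cfsg.Agent.H94.HS.F4.v * Xc 5 Cfsg.Agent.H94.HS.F4.w * Xc 2 Cfsg.Agent.H94.HS.F4.w *
    Xc 7 Cfsg.Agent.H94.HS.F4.w

theorem W7_val : (W7 : Matrix (Fin 6) (Fin 6) K4) = M7 := rfl

theorem W13_val : (W13 : Matrix (Fin 6) (Fin 6) K4) = M13 := rfl

set_option maxRecDepth 100000 in
theorem M7_pow : M7 * M7 * M7 * M7 * M7 * M7 * M7 = 1 := by decide +kernel

set_option maxRecDepth 100000 in
theorem M13_pow : M13 * M13 * M13 * M13 * M13 * M13 * M13 * M13 * M13 * M13 * M13 * M13 * M13 = 1 := by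
  decide +kernel

set_option maxRecDepth 100000 in
theorem M7_fix : ∀ x0 x1 x2 x3 x4 x5 : K4, M7 *ᵥ ![x0, x1, x2, x3, x4, x5] = ![x0, x1, x2, x3, x4, x5] →
    ![x0, x1, x2, x3, x4, x5] = (0 : Fin 6 → K4) := by decide +kernel

set_option maxRecDepth 100000 in
theorem M13_fix : ∀ x0 x1 x2 x3 x4 x5 : K4, M13 *ᵥ ![x0, x1, x2, x3, x4, x5] = ![x0, x1, x2, x3, x4, x5] →
    ![x0, x1, x2, x3, x4, x5] = (0 : Fin 6 → K4) := by decide +kernel

theorem vec_eta (x : Fin 6 → K4) : x = ![x 0, x 1, x 2, x 3, x 4, x 5] := by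
  funext i
  fin_cases i <;> rfl

theorem fpf : StFpf := by
  refine ⟨⟨?_, ?_⟩, ?_, ?_⟩
  · apply Units.ext
    rw [Units.val_pow_eq_pow_val, W7_val, Units.val_one]
    have := M7_pow
    simpa [pow_succ] using this
  · intro x hx
    rw [W7_val] at hx
    rw [vec_eta x] at hx ⊢
    exact M7_fix _ _ _ _ _ _ hx
  · apply Units.ext
    rw [Units.val_pow_eq_pow_val, W13_val, Units.val_one]
    have := M13_pow
    simpa [pow_succ] using this
  · intro x hx
    rw [W13_val] at hx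
    rw [vec_eta x] at hx ⊢
    exact M13_fix _ _ _ _ _ _ hx

example : Cfsg.Agent.H9.PG.StFpf := fpf

end Cfsg.Agent.H53.PG
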