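import Mathlib
import Cfsg.Agent.H69.RSDefs

/-!
# RS-IDXDVD (helper69's project S2361): `|S|` divides `|E| · (|E| - 1)!` (helper53)
-/

set_option autoImplicit false

namespace Cfsg.Agent.H53.RS

open Cfsg.Agent.H69.RS

universe u

/-- piece RS-IDXDVD. -/
theorem idxDvd : StIdxDvd.{u} := by
  intro G _ _ E S hES hSN hcomm hC
  classical
  -- the conjugation action of `S` on the non-identity elements of `E`
  have hconj : ∀ (s : ↥S) (e : ↥E), (s : G) * (e : G) * (s : G)⁻¹ ∈ E := fun s e =>
    (Subgroup.mem_normalizer_iff.mp (hSN s.2) (e : G)).mp e.2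
  let X := {e : ↥E // e ≠ 1}
  let act : ↥S → X → X := fun s x =>
    ⟨⟨(s : G) * (x.1 : G) * (s : G)⁻¹, hconj s x.1⟩, by
      intro h
      apply x.2
      have h' : (s : G) * (x.1 : G) * (s : G)⁻¹ = 1 := congrArg Subtype.val h
      apply Subtype.ext
      show (x.1 : G) = 1
      have : (x.1 : G) = (s : G)⁻¹ * ((s : G) * (x.1 : G) * (s : G)⁻¹) * (s : G) := by group
      rw [this, h']; group⟩
  let inst : MulAction ↥S X :=
    { smul := act
      one_smul := by
        intro x
        apply Subtype.ext; apply Subtype.ext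
        show ((1 : ↥S) : G) * (x.1 : G) * ((1 : ↥S) : G)⁻¹ = (x.1 : G)
        simp
      mul_smul := by
        intro s t x
        apply Subtype.ext; apply Subtype.ext
        show ((s * t : ↥S) : G) * (x.1 : G) * ((s * t : ↥S) : G)⁻¹ =
          (s : G) * ((t : G) * (x.1 : G) * (t : G)⁻¹) * (s : G)⁻¹
        rw [Subgroup.coe_mul]; group }
  have hsmul : ∀ (s : ↥S) (x : X), (((s • x : X).1 : ↥E) : G) = (s : G) * (x.1 : G) * (s : G)⁻¹ :=
    fun s x => rfl
  let φ : ↥S →* Equiv.Perm X := MulAction.toPermHom ↥S X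
  -- the kernel is `E`
  have hker : φ.ker = E.subgroupOf S := by
    ext s
    rw [MonoidHom.mem_ker, Subgroup.mem_subgroupOf]
    constructor
    · intro h
      apply hC
      refine Subgroup.mem_inf.mpr ⟨s.2, ?_⟩
      rw [Subgroup.mem_centralizer_iff]
      intro e he
      by_cases h1 : (⟨e, he⟩ : ↥E) = 1
      · have : e = 1 := congrArg Subtype.val h1
        rw [this]; simp
      · have hx := congrArg (fun p : Equiv.Perm X => (((p ⟨⟨e, he⟩, h1⟩ : X).1 : ↥E) : G)) h
        have hx' : (s : G) * e * (s : G)⁻¹ = e := hx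
        calc e * (s : G) = ((s : G) * e * (s : G)⁻¹) * (s : G) := by rw [hx']
          _ = (s : G) * e := by group
    · intro h
      apply Equiv.ext
      intro x
      apply Subtype.ext; apply Subtype.ext
      show (s : G) * (x.1 : G) * (s : G)⁻¹ = (x.1 : G)
      rw [hcomm _ h _ x.1.2]; group
  have h1 : Nat.card ↥φ.ker = Nat.card ↥E := by
    rw [hker]
    exact Nat.card_congr (Subgroup.subgroupOfEquivOfLe hES).toEquiv
  have h2 : Nat.card ↥S = Nat.card ↥φ.ker * Nat.card ↥φ.range := by
    rw [← Subgroup.index_ker, Subgroup.card_mul_index]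
  have h3 : Nat.card ↥φ.range ∣ Nat.card (Equiv.Perm X) := Subgroup.card_subgroup_dvd_card _
  have h4 : Nat.card ↥E = Nat.card X + 1 := by
    rw [← Finite.card_option]
    exact (Nat.card_congr (Equiv.optionSubtypeNe (1 : ↥E))).symm
  have h5 : Nat.card (Equiv.Perm X) = (Nat.card ↥E - 1).factorial := by
    rw [Nat.card_perm, h4, Nat.add_sub_cancel]
  rw [h2, h1]
  exact Nat.mul_dvd_mul_left _ (h5 ▸ h3)

example : Cfsg.Agent.H69.RS.StIdxDvd.{u} := idxDvd

end Cfsg.Agent.H53.RS
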