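import Mathlib
import Cfsg.Agent.H69.RSDefs

/-!
# RS-IDXODD (helper69's project S2361): `|S : E|` is odd (helper53)
-/

set_option autoImplicit false

namespace Cfsg.Agent.H53.RS

open Cfsg.Agent.H69.RS

universe u

/-- piece RS-IDXODD. -/
theorem idxOdd : StIdxOdd.{u} := by
  intro G _ _ hPc E S hES _ hE2 hC
  haveI : Fact (Nat.Prime 2) := ⟨Nat.prime_two⟩
  -- a Sylow 2-subgroup `T` of `S` containing `E`
  have hE2' : IsPGroup 2 ↥(E.subgroupOf S) :=
    hE2.of_equiv (Subgroup.subgroupOfEquivOfLe hES).symm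
  obtain ⟨T, hT⟩ := hE2'.exists_le_sylow
  -- its image lies in a Sylow 2-subgroup `P` of `G`
  have hT2 : IsPGroup 2 ↥((T : Subgroup ↥S).map S.subtype) :=
    T.isPGroup'.map S.subtype
  obtain ⟨P, hP⟩ := hT2.exists_le_sylow
  have hEP : E ≤ (P : Subgroup G) := by
    intro e he
    apply hP
    exact ⟨⟨e, hES he⟩, hT (Subgroup.mem_subgroupOf.mpr he), rfl⟩
  -- hence `T` maps into `E`
  have hTE : (T : Subgroup ↥S).map S.subtype ≤ E := by
    intro t ht
    apply hC
    refine Subgroup.mem_inf.mpr ⟨?_, ?_⟩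
    · obtain ⟨s, -, rfl⟩ := ht
      exact s.2
    · rw [Subgroup.mem_centralizer_iff]
      intro e he
      exact hPc P e (hEP he) t (hP ht)
  have hTeq : (T : Subgroup ↥S) = E.subgroupOf S := by
    apply le_antisymm
    · intro t ht
      rw [Subgroup.mem_subgroupOf]
      exact hTE ⟨t, ht, rfl⟩
    · exact hT
  have hcard : Nat.card ↥(T : Subgroup ↥S) = Nat.card ↥E := by
    rw [hTeq]
    exact Nat.card_congr (Subgroup.subgroupOfEquivOfLe hES).toEquiv
  have hidx : Nat.card ↥S / Nat.card ↥E = (T : Subgroup ↥S).index := by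
    rw [← hcard, ← Subgroup.card_mul_index (T : Subgroup ↥S)]
    exact Nat.mul_div_cancel_left _ Nat.card_pos
  rw [hidx]
  exact T.not_dvd_index

example : Cfsg.Agent.H69.RS.StIdxOdd.{u} := idxOdd

end Cfsg.Agent.H53.RS
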