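import Mathlib
import Cfsg.Agent.H7.RVDefs

/-!
# RV-EXA (helper7's project S3626): `M_k` has an element of order `q - 1` (helper53)
-/

set_option autoImplicit false
set_option linter.unusedSectionVars false

namespace Cfsg.Agent.H53.RV

open Matrix Cfsg.Agent.H7.RV

open scoped MatrixGroups

section

variable (F : Type) [Field F] [CharP F 3]

theorem mkEl_zero_one (k : ℕ) : mkEl F k 0 1 = 1 := by
  refine SemidirectProduct.ext rfl (Subtype.ext ?_)
  show act F k 1 = 1
  rw [map_one]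

theorem mkEl_zero_pow (k : ℕ) (p : ℤˣ × SL(2, F)) (n : ℕ) :
    mkEl F k 0 p ^ n = mkEl F k 0 (p ^ n) := by
  induction n with
  | zero => rw [pow_zero, pow_zero, mkEl_zero_one]
  | succ n ih =>
    rw [pow_succ, ih, mkEl_mul, pow_succ]
    congr 1
    funext i
    show (0 : Matrix (Fin 2) (Fin 2) F) + actFun F (p ^ n) 0 = 0
    rw [actFun_zero, add_zero]

theorem mkEl_zero_eq_one_iff (k : ℕ) (hk : 1 ≤ k) (p : ℤˣ × SL(2, F)) :
    mkEl F k 0 p = 1 ↔ ∀ X : Matrix (Fin 2) (Fin 2) F, actFun F p X = X := by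
  constructor
  · intro h X
    have h1 : act F k p = 1 := by
      have := congrArg (fun x : Mk F k => ((x.right : ↥(linGrp F k)) :
        MulAut (Multiplicative (Fin k → Matrix (Fin 2) (Fin 2) F)))) h
      exact this
    have h2 := congrArg (fun a : MulAut (Multiplicative (Fin k → Matrix (Fin 2) (Fin 2) F)) =>
      Multiplicative.toAdd (a (Multiplicative.ofAdd (fun _ => X))) ⟨0, hk⟩) h1
    exact h2
  · intro h
    refine SemidirectProduct.ext rfl (Subtype.ext ?_)
    show act F k p = 1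
    refine MulEquiv.ext fun T => ?_
    rw [act_apply]
    apply Multiplicative.toAdd.injective
    funext i
    exact h _

/-- the diagonal element `diag(t, t⁻¹)` -/
noncomputable def dg (t : Fˣ) : SL(2, F) :=
  ⟨Matrix.diagonal ![(t : F), ((t⁻¹ : Fˣ) : F)], by
    rw [Matrix.det_diagonal, Fin.prod_univ_two]
    simp⟩

theorem dg_pow_apply (t : Fˣ) (n : ℕ) :
    ((dg F t ^ n : SL(2, F)) : Matrix (Fin 2) (Fin 2) F) 0 0 = (t : F) ^ n := by
  rw [Matrix.SpecialLinearGroup.coe_pow]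
  show (Matrix.diagonal ![(t : F), ((t⁻¹ : Fˣ) : F)] ^ n) 0 0 = (t : F) ^ n
  rw [Matrix.diagonal_pow]
  simp

theorem dg_pow_eq_one (t : Fˣ) (n : ℕ) (h : t ^ n = 1) : dg F t ^ n = 1 := by
  apply Subtype.ext
  rw [Matrix.SpecialLinearGroup.coe_pow]
  show Matrix.diagonal ![(t : F), ((t⁻¹ : Fˣ) : F)] ^ n = 1
  rw [Matrix.diagonal_pow, ← Matrix.diagonal_one]
  congr 1
  funext i
  have h1 : (t : F) ^ n = 1 := by rw [← Units.val_pow_eq_pow_val, h, Units.val_one]
  have h2 : ((t⁻¹ : Fˣ) : F) ^ n = 1 := by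
    rw [← Units.val_pow_eq_pow_val, inv_pow, h, inv_one, Units.val_one]
  fin_cases i
  · simpa using h1
  · simpa using h2

end

/-- piece RV-EXA. -/
theorem exA (hOne : StOne) : StExA := by
  intro F _ _ _ m k hcard hk
  classical
  obtain ⟨t, ht⟩ := IsCyclic.exists_generator (α := Fˣ)
  have hord : orderOf t = 3 ^ (2 * m + 1) - 1 := by
    rw [orderOf_eq_card_of_forall_mem_zpowers ht, Nat.card_eq_fintype_card, Fintype.card_units,
      hcard]
  have hq4 : 3 ^ (2 * m + 1) % 4 = 3 := by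
    rw [pow_succ, pow_mul, Nat.mul_mod, Nat.pow_mod]
    norm_num
  have hqpos : 0 < 3 ^ (2 * m + 1) := by positivity
  have hm1 : ((-1 : ℤˣ)) ≠ 1 := by decide
  refine ⟨mkEl F k 0 (-1, dg F t), ?_⟩
  apply Nat.dvd_antisymm
  · -- the order divides `q - 1`
    apply orderOf_dvd_of_pow_eq_one
    rw [mkEl_zero_pow]
    have he : Even (3 ^ (2 * m + 1) - 1) := by
      rw [Nat.even_iff]; omega
    have e1 : ((-1 : ℤˣ), dg F t) ^ (3 ^ (2 * m + 1) - 1) = 1 := by
      apply Prod.ext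
      · show (-1 : ℤˣ) ^ (3 ^ (2 * m + 1) - 1) = 1
        exact he.neg_one_pow
      · show dg F t ^ (3 ^ (2 * m + 1) - 1) = 1
        apply dg_pow_eq_one
        rw [← hord]; exact pow_orderOf_eq_one t
    rw [e1, mkEl_zero_one]
  · -- `q - 1` divides the order
    set N := orderOf (mkEl F k 0 ((-1 : ℤˣ), dg F t)) with hN
    have h1 : mkEl F k 0 ((-1 : ℤˣ), dg F t) ^ N = 1 := pow_orderOf_eq_one _
    rw [mkEl_zero_pow, mkEl_zero_eq_one_iff F k hk] at h1
    obtain ⟨hε, hd⟩ := hOne F _ h1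
    have hε' : (-1 : ℤˣ) ^ N = 1 := hε
    have hNeven : Even N := (neg_one_pow_eq_one_iff_even hm1).mp hε'
    have hd' : dg F t ^ N = 1 ∨ dg F t ^ N = -1 := hd
    have ht2 : t ^ (2 * N) = 1 := by
      apply Units.ext
      rw [Units.val_pow_eq_pow_val, Units.val_one, pow_mul']
      rcases hd' with h | h
      · have := dg_pow_apply F t N
        rw [h] at this
        rw [← this]; simp
      · have := dg_pow_apply F t N
        rw [h] at this
        rw [← this]; simp [Matrix.SpecialLinearGroup.coe_neg]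
    have hdvd : (3 ^ (2 * m + 1) - 1) ∣ 2 * N := by
      rw [← hord]; exact orderOf_dvd_of_pow_eq_one ht2
    obtain ⟨j, hj⟩ := hNeven
    obtain ⟨c, hc⟩ := hdvd
    -- `q - 1 = 2 w` with `w` odd
    have hw : ∃ w, 3 ^ (2 * m + 1) - 1 = 2 * w ∧ w % 2 = 1 := ⟨(3 ^ (2 * m + 1) - 1) / 2, by omega, by omega⟩
    obtain ⟨w, hw1, hw2⟩ := hw
    rw [hw1] at hc ⊢
    have hwN : w ∣ N := ⟨c, by
      have : 2 * N = 2 * (w * c) := by rw [hc]; ring
      omega⟩
    have h2N : 2 ∣ N := ⟨j, by omega⟩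
    have hcop : Nat.Coprime 2 w :=
      (Nat.Prime.coprime_iff_not_dvd Nat.prime_two).mpr (by omega)
    exact hcop.mul_dvd_of_dvd_of_dvd h2N hwN

example (hOne : Cfsg.Agent.H7.RV.StOne) : Cfsg.Agent.H7.RV.StExA := exA hOne

end Cfsg.Agent.H53.RV
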