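import Mathlib
import Cfsg.Prelude.Def_Local

/-!
# S5202, piece CHAIN (helper53 for helper87): a `p`-solvable quotient `A / B` gives a chain of
`A`-invariant subgroups between `B` and `A` with `p`- and `p'`-steps (element form)
-/

set_option autoImplicit false

namespace Cfsg.Agent.H53.Red

theorem rc_mem_of_coprime_pow {Q : Type*} [Group Q] (S : Subgroup Q) (x : Q) (a b : ℕ)
    (ha : x ^ a ∈ S) (hb : x ^ b ∈ S) (hab : Nat.Coprime a b) : x ∈ S := by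
  have h1 : (x ^ a) ^ (Nat.gcdA a b) * (x ^ b) ^ (Nat.gcdB a b) ∈ S :=
    S.mul_mem (S.zpow_mem ha _) (S.zpow_mem hb _)
  have h2 : (x ^ a) ^ (Nat.gcdA a b) * (x ^ b) ^ (Nat.gcdB a b) = x := by
    have h3 : ((a : ℤ) * Nat.gcdA a b + (b : ℤ) * Nat.gcdB a b) = 1 := by
      rw [← Nat.gcd_eq_gcd_ab, hab.gcd_eq_one]
      rfl
    rw [← zpow_natCast x a, ← zpow_natCast x b, ← zpow_mul, ← zpow_mul, ← zpow_add, h3, zpow_one]
  rwa [h2] at h1

theorem rc_pow_relIndex_mem {Q : Type*} [Group Q] (H₁ H₂ : Subgroup Q) [H₁.Normal] (x : Q)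
    (hx : x ∈ H₂) : x ^ (H₁.relIndex H₂) ∈ H₁ := by
  have h1 := Subgroup.pow_index_mem (H₁.subgroupOf H₂) (⟨x, hx⟩ : H₂)
  rw [Subgroup.mem_subgroupOf] at h1
  exact h1

theorem exists_pSolvable_chain {G : Type*} [Group G] {p : ℕ} [Fact p.Prime] (A B : Subgroup G)
    [Finite A] (hBA : B ≤ A) [hn : (B.subgroupOf A).Normal]
    (hsolv : Cfsg.IsPSolvable p (↥A ⧸ B.subgroupOf A)) :
    ∃ (n : ℕ) (K : Fin (n + 1) → Subgroup G), K 0 = B ∧ K (Fin.last n) = A ∧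
      (∀ i, B ≤ K i ∧ K i ≤ A ∧ ∀ a ∈ A, ∀ k ∈ K i, a * k * a⁻¹ ∈ K i) ∧
      ∀ i : Fin n, K i.castSucc ≤ K i.succ ∧
        ((∀ a ∈ K i.succ, (orderOf a).Coprime p → a ∈ K i.castSucc) ∨
         (∀ a ∈ K i.succ, ∀ m : ℕ, a ^ (p ^ m) ∈ K i.castSucc → a ∈ K i.castSucc)) := by
  obtain ⟨n, H, h0, hlast, hmono, hnorm, hstep⟩ := hsolv
  obtain ⟨K, hK⟩ : ∃ K : Fin (n + 1) → Subgroup G, ∀ (i : Fin (n + 1)) (g : G), g ∈ K i ↔
      ∃ hg : g ∈ A, (QuotientGroup.mk' (B.subgroupOf A)) ⟨g, hg⟩ ∈ H i := by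
    refine ⟨fun i => ((H i).comap (QuotientGroup.mk' (B.subgroupOf A))).map A.subtype, ?_⟩
    intro i g
    constructor
    · rintro ⟨y, hy, rfl⟩
      exact ⟨y.2, hy⟩
    · rintro ⟨hg, h⟩
      exact ⟨⟨g, hg⟩, h, rfl⟩
  have hone : ∀ (b : G) (hb : b ∈ B),
      (QuotientGroup.mk' (B.subgroupOf A)) ⟨b, hBA hb⟩ = 1 := fun b hb =>
    (QuotientGroup.eq_one_iff _).mpr (Subgroup.mem_subgroupOf.mpr hb)
  refine ⟨n, K, ?_, ?_, ?_, ?_⟩
  · ext g
    rw [hK, h0]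
    constructor
    · rintro ⟨hg, h⟩
      rw [Subgroup.mem_bot] at h
      exact Subgroup.mem_subgroupOf.mp ((QuotientGroup.eq_one_iff _).mp h)
    · intro hg
      refine ⟨hBA hg, ?_⟩
      rw [Subgroup.mem_bot]
      exact hone g hg
  · ext g
    rw [hK, hlast]
    exact ⟨fun ⟨hg, _⟩ => hg, fun hg => ⟨hg, Subgroup.mem_top _⟩⟩
  · intro i
    refine ⟨?_, ?_, ?_⟩
    · intro b hb
      rw [hK]
      refine ⟨hBA hb, ?_⟩
      rw [hone b hb]
      exact one_mem _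
    · intro g hg
      rw [hK] at hg
      exact hg.1
    · intro a ha k hk
      rw [hK] at hk ⊢
      obtain ⟨hkA, hk⟩ := hk
      refine ⟨A.mul_mem (A.mul_mem ha hkA) (A.inv_mem ha), ?_⟩
      have h1 : (⟨a * k * a⁻¹, A.mul_mem (A.mul_mem ha hkA) (A.inv_mem ha)⟩ : A) =
          ⟨a, ha⟩ * ⟨k, hkA⟩ * (⟨a, ha⟩ : A)⁻¹ := rfl
      rw [h1, map_mul, map_mul, map_inv]
      exact (hnorm i).conj_mem _ hk _
  · intro i
    have hni := hnorm i.castSucc
    refine ⟨?_, ?_⟩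
    · intro g hg
      rw [hK] at hg ⊢
      obtain ⟨hgA, hg⟩ := hg
      exact ⟨hgA, hmono (Fin.castSucc_lt_succ (i := i)).le hg⟩
    · rcases hstep i with ⟨m, hm⟩ | hcop
      · left
        intro a ha hac
        rw [hK] at ha ⊢
        obtain ⟨haA, ha⟩ := ha
        refine ⟨haA, ?_⟩
        have h1 := rc_pow_relIndex_mem (H i.castSucc) (H i.succ) _ ha
        rw [hm] at h1
        have h2 : ((QuotientGroup.mk' (B.subgroupOf A)) ⟨a, haA⟩) ^ (orderOf a) ∈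
            H i.castSucc := by
          rw [← map_pow]
          have h3 : (⟨a, haA⟩ : A) ^ orderOf a = 1 :=
            Subtype.ext (by rw [Subgroup.coe_pow, Subgroup.coe_one]; exact pow_orderOf_eq_one a)
          rw [h3, map_one]
          exact one_mem _
        exact rc_mem_of_coprime_pow _ _ _ _ h1 h2 (Nat.Coprime.pow_left m hac.symm)
      · right
        intro a ha m ham
        rw [hK] at ha ham ⊢
        obtain ⟨haA, ha⟩ := ha
        obtain ⟨hamA, ham⟩ := ham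
        refine ⟨haA, ?_⟩
        have h1 := rc_pow_relIndex_mem (H i.castSucc) (H i.succ) _ ha
        have h2 : ((QuotientGroup.mk' (B.subgroupOf A)) ⟨a, haA⟩) ^ (p ^ m) ∈
            H i.castSucc := by
          rw [← map_pow]
          exact ham
        exact rc_mem_of_coprime_pow _ _ _ _ h2 h1 (Nat.Coprime.pow_left m hcop.symm)

/-- verbatim check of the posted statement -/
example {G : Type*} [Group G] {p : ℕ} [Fact p.Prime] (A B : Subgroup G)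
    [Finite A] (hBA : B ≤ A) [hn : (B.subgroupOf A).Normal]
    (hsolv : Cfsg.IsPSolvable p (↥A ⧸ B.subgroupOf A)) :
    ∃ (n : ℕ) (K : Fin (n + 1) → Subgroup G), K 0 = B ∧ K (Fin.last n) = A ∧
      (∀ i, B ≤ K i ∧ K i ≤ A ∧ ∀ a ∈ A, ∀ k ∈ K i, a * k * a⁻¹ ∈ K i) ∧
      ∀ i : Fin n, K i.castSucc ≤ K i.succ ∧
        ((∀ a ∈ K i.succ, (orderOf a).Coprime p → a ∈ K i.castSucc) ∨
         (∀ a ∈ K i.succ, ∀ m : ℕ, a ^ (p ^ m) ∈ K i.castSucc → a ∈ K i.castSucc)) :=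
  exists_pSolvable_chain A B hBA hsolv

end Cfsg.Agent.H53.Red
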