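import Mathlib
import Cfsg.Agent.H64.TmDefs

/-!
# S3701 piece TM-DECOMP (helper53 for helper64): `P₁ = 1 + χ₁ - χ₂`
-/

set_option autoImplicit false
set_option linter.style.haveILetI false

namespace Cfsg.Agent.H53.Tm

open Cfsg Cfsg.Agent.H64.Tm
open scoped ComplexConjugate

universe u

theorem decomp (hV : StVals.{u}) (hC : StCount.{u}) (hG : StGen.{u})
    (hN : Cfsg.Agent.H4.Tn.StNorm3.{u}) : StDecomp.{u} := by
  intro G _ _ H T a b c x y cfg
  classical
  haveI : Fintype G := Fintype.ofFinite G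
  obtain ⟨Φ, Ψ, hΦ, hΨ, hd⟩ := hG G H T a b c x y cfg
  obtain ⟨-, hinv⟩ := hV G H T a b c x y cfg
  have hcount := hC G H T a b c x y cfg
  have hfun : Φ - Ψ = P1 a b c x := funext hd
  have hcardG : (Nat.card G : ℂ) ≠ 0 := Nat.cast_ne_zero.mpr Nat.card_pos.ne'
  have hcountC : (3 : ℂ) * (Nat.card (S1G a b c x) : ℂ) = (Nat.card G : ℂ) := by
    exact_mod_cast hcount
  have hsum : ∑ g : G, P1 a b c x g = 3 * (Nat.card (S1G a b c x) : ℂ) := by
    unfold P1
    simp only [Set.indicator_apply]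
    rw [Finset.sum_ite, Finset.sum_const_zero, add_zero, Finset.sum_const, nsmul_eq_mul,
      ← Fintype.card_subtype, ← Nat.card_eq_fintype_card]
    exact mul_comm _ _
  have h1 : classInner (Φ - Ψ) (Φ - Ψ) = 3 := by
    rw [hfun]
    unfold classInner
    have hterm : ∀ g : G, P1 a b c x g * conj (P1 a b c x g) = 3 * P1 a b c x g := by
      intro g
      unfold P1
      by_cases hg : g ∈ S1G a b c x
      · rw [Set.indicator_of_mem hg]
        rw [Complex.conj_ofNat]
      · rw [Set.indicator_of_notMem hg]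
        simp
    rw [Finset.sum_congr rfl (fun g _ => hterm g), ← Finset.mul_sum, hsum, hcountC]
    field_simp
  have h2 : classInner (Φ - Ψ) (fun _ => 1) = 1 := by
    rw [hfun]
    unfold classInner
    simp only [map_one, mul_one]
    rw [hsum, hcountC]
    field_simp
  have h3 : Φ 1 = Ψ 1 := by
    have h := hd 1
    have h11 : (1 : G) ∉ S1G a b c x := hinv 1 (one_mul 1)
    unfold P1 at h
    rw [Set.indicator_of_notMem h11] at h
    exact sub_eq_zero.mp h
  obtain ⟨χ₁, χ₂, hχ⟩ := hN G Φ Ψ hΦ hΨ h1 h2 h3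
  refine ⟨χ₁, χ₂, fun g => ?_⟩
  rw [← hχ g, hd g]

end Cfsg.Agent.H53.Tm

universe u in
example (hV : Cfsg.Agent.H64.Tm.StVals.{u}) (hC : Cfsg.Agent.H64.Tm.StCount.{u})
    (hG : Cfsg.Agent.H64.Tm.StGen.{u}) (hN : Cfsg.Agent.H4.Tn.StNorm3.{u}) :
    Cfsg.Agent.H64.Tm.StDecomp.{u} := Cfsg.Agent.H53.Tm.decomp hV hC hG hN
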