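import Mathlib
import Cfsg.Agent.H4.TnDefs
import Cfsg.Agent.H4.Exceptional
import Cfsg.Agent.H4.PaQb

/-!
# S3805 piece TN-GEN (helper53 for helper4): `P₁ = Ind_C^G 1 - Ind_C^G λ` with `C = C_G(a)`
-/

set_option autoImplicit false
set_option linter.style.haveILetI false
set_option linter.unusedVariables false

namespace Cfsg.Agent.H53.Tn

open Cfsg Cfsg.Agent.H4.Tn Subgroup

universe u

/-- Sum of a function that is `α` on `C`, `β` on `N ∖ C` and `0` off `N` (`C ≤ N`). -/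
theorem sum_two_level {G : Type u} [Group G] [Fintype G] (C N : Subgroup G) (hCN : C ≤ N)
    (F : G → ℂ) (α β : ℂ) (h0 : ∀ x, x ∉ N → F x = 0) (h1 : ∀ x, x ∈ C → F x = α)
    (h2 : ∀ x, x ∈ N → x ∉ C → F x = β) :
    ∑ x : G, F x = (Nat.card C : ℂ) * α + ((Nat.card N : ℂ) - (Nat.card C : ℂ)) * β := by
  classical
  have hF : ∀ x, F x = (if x ∈ N then β else 0) + (if x ∈ C then (α - β) else 0) := by
    intro x
    by_cases hN : x ∈ N
    · by_cases hC : x ∈ C
      · rw [if_pos hN, if_pos hC, h1 x hC]; ring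
      · rw [if_pos hN, if_neg hC, h2 x hN hC]; ring
    · have hC : x ∉ C := fun h => hN (hCN h)
      rw [if_neg hN, if_neg hC, h0 x hN]; ring
  rw [Finset.sum_congr rfl (fun x _ => hF x), Finset.sum_add_distrib]
  have hcard : ∀ (H : Subgroup G) (c : ℂ),
      ∑ x : G, (if x ∈ H then c else 0) = (Nat.card H : ℂ) * c := by
    intro H c
    rw [Finset.sum_ite, Finset.sum_const_zero, add_zero, Finset.sum_const, nsmul_eq_mul,
      ← Fintype.card_subtype, ← Nat.card_eq_fintype_card]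
  rw [hcard N β, hcard C (α - β)]
  ring

theorem gen (hL : StLam.{u}) (hC : StCa.{u}) (hS : StS1.{u}) (hTI : StTI.{u}) : StGen.{u} := by
  intro G _ _ T a b u v cfg
  classical
  haveI : Fintype G := Fintype.ofFinite G
  obtain ⟨l, ω, hω1, hω3, hl, hlval⟩ := hL G T a b u v cfg
  obtain ⟨hCelts, hcomm, hcardA, hcardC, hCN, hinvt, hnorm⟩ := hC G T a b u v cfg
  have hti := hTI G T a b u v cfg
  have hω : ω ^ 2 + ω + 1 = 0 := by
    have h : (ω - 1) * (ω ^ 2 + ω + 1) = 0 := by linear_combination hω3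
    exact (mul_eq_zero.mp h).resolve_left (sub_ne_zero.mpr hω1)
  have haC : a ∈ centralizer ({a} : Set G) := by
    rw [Subgroup.mem_centralizer_iff]
    intro h hh
    rw [Set.mem_singleton_iff] at hh
    rw [hh]
  have hAC : closure ({b, u} : Set G) ≤ centralizer ({a} : Set G) := by
    intro w hw
    rw [Subgroup.mem_centralizer_iff]
    intro h hh
    rw [Set.mem_singleton_iff] at hh
    rw [hh]; exact (hcomm w hw).symm
  have h1char : IsCharacter (centralizer ({a} : Set G)) (fun _ => 1) :=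
    Cfsg.Agent.H4.isCharacter_of_isIrrCharacter Cfsg.Agent.H4.isIrrCharacter_one
  set e : G → ℂ := extendByZero (centralizer ({a} : Set G)) ((fun _ => (1 : ℂ)) - l) with he
  have hE1 : ∀ y : G, y ∉ S1 a b u → e y = 0 := by
    intro y hy
    by_cases hyC : y ∈ centralizer ({a} : Set G)
    · obtain ⟨w, hw, h | h | h⟩ := hCelts y hyC
      · rw [he, Cfsg.Agent.H4.extendByZero_of_mem _ _ hyC]
        show (1 : ℂ) - l ⟨y, hyC⟩ = 0
        rw [(hlval ⟨y, hyC⟩ w hw).1 h, sub_self]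
      · exact absurd ⟨w, hw, Or.inl h⟩ hy
      · exact absurd ⟨w, hw, Or.inr h⟩ hy
    · rw [he, Cfsg.Agent.H4.extendByZero_of_not_mem _ _ hyC]
  have hE2 : ∀ w ∈ closure ({b, u} : Set G), e (a * w) = 1 - ω := by
    intro w hw
    have hm : a * w ∈ centralizer ({a} : Set G) := Subgroup.mul_mem _ haC (hAC hw)
    rw [he, Cfsg.Agent.H4.extendByZero_of_mem _ _ hm]
    show (1 : ℂ) - l ⟨a * w, hm⟩ = 1 - ω
    rw [(hlval ⟨a * w, hm⟩ w hw).2.1 rfl]
  have hE3 : ∀ w ∈ closure ({b, u} : Set G), e (a⁻¹ * w) = 1 - ω ^ 2 := by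
    intro w hw
    have hm : a⁻¹ * w ∈ centralizer ({a} : Set G) :=
      Subgroup.mul_mem _ (Subgroup.inv_mem _ haC) (hAC hw)
    rw [he, Cfsg.Agent.H4.extendByZero_of_mem _ _ hm]
    show (1 : ℂ) - l ⟨a⁻¹ * w, hm⟩ = 1 - ω ^ 2
    rw [(hlval ⟨a⁻¹ * w, hm⟩ w hw).2.2 rfl]
  have hconjA : ∀ x ∈ normalizer (T : Set G), ∀ w ∈ closure ({b, u} : Set G),
      x⁻¹ * w * x ∈ closure ({b, u} : Set G) := by
    intro x hx w hw
    have := hnorm x⁻¹ (Subgroup.inv_mem _ hx) w hw
    simpa using this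
  have hconja_C : ∀ x ∈ centralizer ({a} : Set G), x⁻¹ * a * x = a := by
    intro x hx
    have := (Subgroup.mem_centralizer_iff.mp hx) a (Set.mem_singleton a)
    rw [mul_assoc, this, ← mul_assoc, inv_mul_cancel, one_mul]
  have hconja_N : ∀ x ∈ normalizer (T : Set G), x ∉ centralizer ({a} : Set G) →
      x⁻¹ * a * x = a⁻¹ := by
    intro x hx hxC
    have h := hinvt x⁻¹ (Subgroup.inv_mem _ hx)
      (fun h => hxC (by simpa using Subgroup.inv_mem _ h))
    simpa using h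
  have hnotN : ∀ s ∈ S1 a b u, ∀ x : G, x ∉ normalizer (T : Set G) → e (x⁻¹ * s * x) = 0 := by
    intro s hs x hx
    apply hE1
    intro hmem
    apply hx
    have := hti s hs x⁻¹ (by simpa using hmem)
    simpa using Subgroup.inv_mem _ this
  have hsum : ∀ s ∈ S1 a b u, ∑ x : G, e (x⁻¹ * s * x) = 54 := by
    intro s hs
    obtain ⟨w, hw, h | h⟩ := id hs
    · rw [sum_two_level (centralizer ({a} : Set G)) (normalizer (T : Set G)) hCN
        (fun x => e (x⁻¹ * s * x)) (1 - ω) (1 - ω ^ 2) (hnotN s hs) ?_ ?_]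
      · rw [hcardC, cfg.cardN]
        push_cast
        linear_combination (-18 : ℂ) * hω
      · intro x hx
        show e (x⁻¹ * s * x) = 1 - ω
        have hrw : x⁻¹ * s * x = a * (x⁻¹ * w * x) := by
          rw [h]
          calc x⁻¹ * (a * w) * x = (x⁻¹ * a * x) * (x⁻¹ * w * x) := by group
            _ = a * (x⁻¹ * w * x) := by rw [hconja_C x hx]
        rw [hrw]
        exact hE2 _ (hconjA x (hCN hx) w hw)
      · intro x hxN hxC
        show e (x⁻¹ * s * x) = 1 - ω ^ 2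
        have hrw : x⁻¹ * s * x = a⁻¹ * (x⁻¹ * w * x) := by
          rw [h]
          calc x⁻¹ * (a * w) * x = (x⁻¹ * a * x) * (x⁻¹ * w * x) := by group
            _ = a⁻¹ * (x⁻¹ * w * x) := by rw [hconja_N x hxN hxC]
        rw [hrw]
        exact hE3 _ (hconjA x hxN w hw)
    · rw [sum_two_level (centralizer ({a} : Set G)) (normalizer (T : Set G)) hCN
        (fun x => e (x⁻¹ * s * x)) (1 - ω ^ 2) (1 - ω) (hnotN s hs) ?_ ?_]
      · rw [hcardC, cfg.cardN]
        push_cast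
        linear_combination (-18 : ℂ) * hω
      · intro x hx
        show e (x⁻¹ * s * x) = 1 - ω ^ 2
        have hrw : x⁻¹ * s * x = a⁻¹ * (x⁻¹ * w * x) := by
          rw [h]
          calc x⁻¹ * (a⁻¹ * w) * x = (x⁻¹ * a * x)⁻¹ * (x⁻¹ * w * x) := by group
            _ = a⁻¹ * (x⁻¹ * w * x) := by rw [hconja_C x hx]
        rw [hrw]
        exact hE3 _ (hconjA x (hCN hx) w hw)
      · intro x hxN hxC
        show e (x⁻¹ * s * x) = 1 - ω
        have hrw : x⁻¹ * s * x = a * (x⁻¹ * w * x) := by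
          rw [h]
          calc x⁻¹ * (a⁻¹ * w) * x = (x⁻¹ * a * x)⁻¹ * (x⁻¹ * w * x) := by group
            _ = a * (x⁻¹ * w * x) := by rw [hconja_N x hxN hxC, inv_inv]
        rw [hrw]
        exact hE2 _ (hconjA x hxN w hw)
  refine ⟨indFun (centralizer ({a} : Set G)) (fun _ => 1),
    indFun (centralizer ({a} : Set G)) l,
    Cfsg.Agent.H4.isCharacter_indFun _ _ h1char, Cfsg.Agent.H4.isCharacter_indFun _ _ hl, ?_⟩
  intro g
  have hθ : indFun (centralizer ({a} : Set G)) (fun _ => 1) g -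
      indFun (centralizer ({a} : Set G)) l g =
      indFun (centralizer ({a} : Set G)) ((fun _ => (1 : ℂ)) - l) g := by
    rw [Cfsg.Agent.H4.indFun_sub]; rfl
  rw [hθ]
  have hcls := Cfsg.Agent.H4.indFun_isClassFunction (centralizer ({a} : Set G))
    ((fun _ => (1 : ℂ)) - l)
  by_cases hg : g ∈ S1G a b u
  · obtain ⟨x₀, hx₀⟩ := id hg
    have hP : P1 a b u g = 3 := by
      unfold P1
      rw [Set.indicator_of_mem hg]
    rw [hP, ← hcls g x₀, Cfsg.Agent.H4.indFun_apply, hsum _ hx₀, hcardC]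
    norm_num
  · have hP : P1 a b u g = 0 := by
      unfold P1
      rw [Set.indicator_of_notMem hg]
    rw [hP, Cfsg.Agent.H4.indFun_apply]
    have hz : ∀ x : G, extendByZero (centralizer ({a} : Set G)) ((fun _ => (1 : ℂ)) - l)
        (x⁻¹ * g * x) = 0 := by
      intro x
      apply hE1
      intro hmem
      exact hg ⟨x⁻¹, by simpa using hmem⟩
    rw [Finset.sum_eq_zero (fun x _ => hz x), mul_zero]

end Cfsg.Agent.H53.Tn

universe u in
example (hL : Cfsg.Agent.H4.Tn.StLam.{u}) (hC : Cfsg.Agent.H4.Tn.StCa.{u})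
    (hS : Cfsg.Agent.H4.Tn.StS1.{u}) (hTI : Cfsg.Agent.H4.Tn.StTI.{u}) :
    Cfsg.Agent.H4.Tn.StGen.{u} := Cfsg.Agent.H53.Tn.gen hL hC hS hTI
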