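import Mathlib
import Cfsg.Agent.H64.TmDefs
import Cfsg.Agent.H4.Exceptional
import Cfsg.Agent.H4.PaQb
import Cfsg.Agent.H53.TnGen

/-!
# S3701 piece TM-GEN (helper53 for helper64): `P₁ = Ind_C^G 1 - Ind_C^G λ` with `C = C_G(c)`
-/

set_option autoImplicit false
set_option linter.style.haveILetI false
set_option linter.unusedVariables false

namespace Cfsg.Agent.H53.Tm

open Cfsg Cfsg.Agent.H64.Tm Subgroup

universe u

theorem gen (hL : StLam.{u}) (hC : StCC.{u}) (hD : StD.{u}) (hS : StS1.{u}) (hTI : StTI.{u}) :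
    StGen.{u} := by
  intro G _ _ H T a b c x y cfg
  classical
  haveI : Fintype G := Fintype.ofFinite G
  obtain ⟨l, ω, hω1, hω3, hl, hlval⟩ := hL G H T a b c x y cfg
  obtain ⟨hCelts, hcardC, hCN, hinvt⟩ := hC G H T a b c x y cfg
  obtain ⟨-, hcomm, hnorm, -⟩ := hD G H T a b c x y cfg
  have hti := hTI G H T a b c x y cfg
  have hω : ω ^ 2 + ω + 1 = 0 := by
    have h : (ω - 1) * (ω ^ 2 + ω + 1) = 0 := by linear_combination hω3
    exact (mul_eq_zero.mp h).resolve_left (sub_ne_zero.mpr hω1)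
  have haC : c ∈ centralizer ({c} : Set G) := by
    rw [Subgroup.mem_centralizer_iff]
    intro h hh
    rw [Set.mem_singleton_iff] at hh
    rw [hh]
  have hAC : closure ({a, b, x} : Set G) ≤ centralizer ({c} : Set G) := by
    intro w hw
    rw [Subgroup.mem_centralizer_iff]
    intro h hh
    rw [Set.mem_singleton_iff] at hh
    rw [hh]; exact (hcomm w hw).symm
  have h1char : IsCharacter (centralizer ({c} : Set G)) (fun _ => 1) :=
    Cfsg.Agent.H4.isCharacter_of_isIrrCharacter Cfsg.Agent.H4.isIrrCharacter_one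
  set e : G → ℂ := extendByZero (centralizer ({c} : Set G)) ((fun _ => (1 : ℂ)) - l) with he
  have hE1 : ∀ z : G, z ∉ S1 a b c x → e z = 0 := by
    intro z hz
    by_cases hzC : z ∈ centralizer ({c} : Set G)
    · obtain ⟨w, hw, h | h | h⟩ := hCelts z hzC
      · rw [he, Cfsg.Agent.H4.extendByZero_of_mem _ _ hzC]
        show (1 : ℂ) - l ⟨z, hzC⟩ = 0
        rw [(hlval ⟨z, hzC⟩ w hw).1 h, sub_self]
      · exact absurd ⟨w, hw, Or.inl h⟩ hz
      · exact absurd ⟨w, hw, Or.inr h⟩ hz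
    · rw [he, Cfsg.Agent.H4.extendByZero_of_not_mem _ _ hzC]
  have hE2 : ∀ w ∈ closure ({a, b, x} : Set G), e (c * w) = 1 - ω := by
    intro w hw
    have hm : c * w ∈ centralizer ({c} : Set G) := Subgroup.mul_mem _ haC (hAC hw)
    rw [he, Cfsg.Agent.H4.extendByZero_of_mem _ _ hm]
    show (1 : ℂ) - l ⟨c * w, hm⟩ = 1 - ω
    rw [(hlval ⟨c * w, hm⟩ w hw).2.1 rfl]
  have hE3 : ∀ w ∈ closure ({a, b, x} : Set G), e (c⁻¹ * w) = 1 - ω ^ 2 := by
    intro w hw
    have hm : c⁻¹ * w ∈ centralizer ({c} : Set G) :=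
      Subgroup.mul_mem _ (Subgroup.inv_mem _ haC) (hAC hw)
    rw [he, Cfsg.Agent.H4.extendByZero_of_mem _ _ hm]
    show (1 : ℂ) - l ⟨c⁻¹ * w, hm⟩ = 1 - ω ^ 2
    rw [(hlval ⟨c⁻¹ * w, hm⟩ w hw).2.2 rfl]
  have hconjA : ∀ r ∈ H, ∀ w ∈ closure ({a, b, x} : Set G),
      r⁻¹ * w * r ∈ closure ({a, b, x} : Set G) := by
    intro r hr w hw
    have := hnorm r⁻¹ (Subgroup.inv_mem _ hr) w hw
    simpa using this
  have hconja_C : ∀ r ∈ centralizer ({c} : Set G), r⁻¹ * c * r = c := by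
    intro r hr
    have := (Subgroup.mem_centralizer_iff.mp hr) c (Set.mem_singleton c)
    rw [mul_assoc, this, ← mul_assoc, inv_mul_cancel, one_mul]
  have hconja_N : ∀ r ∈ H, r ∉ centralizer ({c} : Set G) → r⁻¹ * c * r = c⁻¹ := by
    intro r hr hrC
    have h := hinvt r⁻¹ (Subgroup.inv_mem _ hr)
      (fun h => hrC (by simpa using Subgroup.inv_mem _ h))
    simpa using h
  have hnotN : ∀ s ∈ S1 a b c x, ∀ r : G, r ∉ H → e (r⁻¹ * s * r) = 0 := by
    intro s hs r hr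
    apply hE1
    intro hmem
    apply hr
    have := hti s hs r⁻¹ (by simpa using hmem)
    simpa using Subgroup.inv_mem _ this
  have hsum : ∀ s ∈ S1 a b c x, ∑ r : G, e (r⁻¹ * s * r) = 162 := by
    intro s hs
    obtain ⟨w, hw, h | h⟩ := id hs
    · rw [Cfsg.Agent.H53.Tn.sum_two_level (centralizer ({c} : Set G)) H hCN
        (fun r => e (r⁻¹ * s * r)) (1 - ω) (1 - ω ^ 2) (hnotN s hs) ?_ ?_]
      · rw [hcardC, cfg.cardH]
        push_cast
        linear_combination (-54 : ℂ) * hω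
      · intro r hr
        show e (r⁻¹ * s * r) = 1 - ω
        have hrw : r⁻¹ * s * r = c * (r⁻¹ * w * r) := by
          rw [h]
          calc r⁻¹ * (c * w) * r = (r⁻¹ * c * r) * (r⁻¹ * w * r) := by group
            _ = c * (r⁻¹ * w * r) := by rw [hconja_C r hr]
        rw [hrw]
        exact hE2 _ (hconjA r (hCN hr) w hw)
      · intro r hrN hrC
        show e (r⁻¹ * s * r) = 1 - ω ^ 2
        have hrw : r⁻¹ * s * r = c⁻¹ * (r⁻¹ * w * r) := by
          rw [h]
          calc r⁻¹ * (c * w) * r = (r⁻¹ * c * r) * (r⁻¹ * w * r) := by group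
            _ = c⁻¹ * (r⁻¹ * w * r) := by rw [hconja_N r hrN hrC]
        rw [hrw]
        exact hE3 _ (hconjA r hrN w hw)
    · rw [Cfsg.Agent.H53.Tn.sum_two_level (centralizer ({c} : Set G)) H hCN
        (fun r => e (r⁻¹ * s * r)) (1 - ω ^ 2) (1 - ω) (hnotN s hs) ?_ ?_]
      · rw [hcardC, cfg.cardH]
        push_cast
        linear_combination (-54 : ℂ) * hω
      · intro r hr
        show e (r⁻¹ * s * r) = 1 - ω ^ 2
        have hrw : r⁻¹ * s * r = c⁻¹ * (r⁻¹ * w * r) := by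
          rw [h]
          calc r⁻¹ * (c⁻¹ * w) * r = (r⁻¹ * c * r)⁻¹ * (r⁻¹ * w * r) := by group
            _ = c⁻¹ * (r⁻¹ * w * r) := by rw [hconja_C r hr]
        rw [hrw]
        exact hE3 _ (hconjA r (hCN hr) w hw)
      · intro r hrN hrC
        show e (r⁻¹ * s * r) = 1 - ω
        have hrw : r⁻¹ * s * r = c * (r⁻¹ * w * r) := by
          rw [h]
          calc r⁻¹ * (c⁻¹ * w) * r = (r⁻¹ * c * r)⁻¹ * (r⁻¹ * w * r) := by group
            _ = c * (r⁻¹ * w * r) := by rw [hconja_N r hrN hrC, inv_inv]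
        rw [hrw]
        exact hE2 _ (hconjA r hrN w hw)
  refine ⟨indFun (centralizer ({c} : Set G)) (fun _ => 1),
    indFun (centralizer ({c} : Set G)) l,
    Cfsg.Agent.H4.isCharacter_indFun _ _ h1char, Cfsg.Agent.H4.isCharacter_indFun _ _ hl, ?_⟩
  intro g
  have hθ : indFun (centralizer ({c} : Set G)) (fun _ => 1) g -
      indFun (centralizer ({c} : Set G)) l g =
      indFun (centralizer ({c} : Set G)) ((fun _ => (1 : ℂ)) - l) g := by
    rw [Cfsg.Agent.H4.indFun_sub]; rfl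
  rw [hθ]
  have hcls := Cfsg.Agent.H4.indFun_isClassFunction (centralizer ({c} : Set G))
    ((fun _ => (1 : ℂ)) - l)
  by_cases hg : g ∈ S1G a b c x
  · obtain ⟨r₀, hr₀⟩ := id hg
    have hP : P1 a b c x g = 3 := by
      unfold P1
      rw [Set.indicator_of_mem hg]
    rw [hP, ← hcls g r₀, Cfsg.Agent.H4.indFun_apply, hsum _ hr₀, hcardC]
    norm_num
  · have hP : P1 a b c x g = 0 := by
      unfold P1
      rw [Set.indicator_of_notMem hg]
    rw [hP, Cfsg.Agent.H4.indFun_apply]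
    have hz : ∀ r : G, extendByZero (centralizer ({c} : Set G)) ((fun _ => (1 : ℂ)) - l)
        (r⁻¹ * g * r) = 0 := by
      intro r
      apply hE1
      intro hmem
      exact hg ⟨r⁻¹, by simpa using hmem⟩
    rw [Finset.sum_eq_zero (fun r _ => hz r), mul_zero]

end Cfsg.Agent.H53.Tm

universe u in
example (hL : Cfsg.Agent.H64.Tm.StLam.{u}) (hC : Cfsg.Agent.H64.Tm.StCC.{u})
    (hD : Cfsg.Agent.H64.Tm.StD.{u}) (hS : Cfsg.Agent.H64.Tm.StS1.{u})
    (hTI : Cfsg.Agent.H64.Tm.StTI.{u}) :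
    Cfsg.Agent.H64.Tm.StGen.{u} := Cfsg.Agent.H53.Tm.gen hL hC hD hS hTI
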