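import Mathlib
import Cfsg.Agent.H64.TmDefs
import Cfsg.Agent.H4.Irr
import Cfsg.Agent.H82.Irr

/-!
# S3701 piece TM-LAM (helper53 for helper64): the linear character `λ` of `C_G(c)` with
`λ(c^i w) = ω^i` for `w ∈ ⟨a, b, x⟩`
-/

set_option autoImplicit false
set_option linter.style.haveILetI false

namespace Cfsg.Agent.H53.Tm

open Cfsg Cfsg.Agent.H64.Tm Subgroup

universe u

theorem lam (hD : StD.{u}) (hC : StCC.{u}) : StLam.{u} := by
  intro G _ _ H T a b c x y cfg
  classical
  obtain ⟨-, hcomm, hnorm, hcardA⟩ := hD G H T a b c x y cfg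
  obtain ⟨hCelts, hcardC, hCN, -⟩ := hC G H T a b c x y cfg
  have hAC : closure ({a, b, x} : Set G) ≤ centralizer ({c} : Set G) := by
    intro w hw
    rw [Subgroup.mem_centralizer_iff]
    intro h hh
    rw [Set.mem_singleton_iff] at hh
    rw [hh]; exact (hcomm w hw).symm
  have haC : c ∈ centralizer ({c} : Set G) := by
    rw [Subgroup.mem_centralizer_iff]
    intro h hh
    rw [Set.mem_singleton_iff] at hh
    rw [hh]
  haveI hA'n : ((closure ({a, b, x} : Set G)).subgroupOf (centralizer ({c} : Set G))).Normal := by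
    constructor
    intro n hn g
    rw [Subgroup.mem_subgroupOf] at hn ⊢
    have := hnorm (g : G) (hCN g.2) (n : G) hn
    simpa using this
  have hcardA' : Nat.card ((closure ({a, b, x} : Set G)).subgroupOf
      (centralizer ({c} : Set G))) = 18 := by
    rw [← hcardA]
    exact Nat.card_congr (Subgroup.subgroupOfEquivOfLe hAC).toEquiv
  have hindex : ((closure ({a, b, x} : Set G)).subgroupOf
      (centralizer ({c} : Set G))).index = 3 := by
    have h := Subgroup.card_mul_index
      ((closure ({a, b, x} : Set G)).subgroupOf (centralizer ({c} : Set G)))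
    rw [hcardA', hcardC] at h
    omega
  have hcardQ : Nat.card (↥(centralizer ({c} : Set G)) ⧸
      (closure ({a, b, x} : Set G)).subgroupOf (centralizer ({c} : Set G))) = 3 := by
    rw [← Subgroup.index_eq_card]; exact hindex
  have haA : c ∉ closure ({a, b, x} : Set G) := by
    intro ha
    have hCA : centralizer ({c} : Set G) ≤ closure ({a, b, x} : Set G) := by
      intro g hg
      obtain ⟨w, hw, h | h | h⟩ := hCelts g hg
      · rw [h]; exact hw
      · rw [h]; exact Subgroup.mul_mem _ ha hw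
      · rw [h]; exact Subgroup.mul_mem _ (Subgroup.inv_mem _ ha) hw
    have := Subgroup.card_le_of_le hCA
    rw [hcardC, hcardA] at this
    omega
  set abar : ↥(centralizer ({c} : Set G)) ⧸
      (closure ({a, b, x} : Set G)).subgroupOf (centralizer ({c} : Set G)) :=
    QuotientGroup.mk (⟨c, haC⟩ : centralizer ({c} : Set G)) with habar
  have habar1 : abar ≠ 1 := by
    intro h
    rw [habar, QuotientGroup.eq_one_iff, Subgroup.mem_subgroupOf] at h
    exact haA h
  haveI : Fact (Nat.Prime 3) := ⟨by norm_num⟩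
  have hgen : ∀ q : ↥(centralizer ({c} : Set G)) ⧸
      (closure ({a, b, x} : Set G)).subgroupOf (centralizer ({c} : Set G)), q ∈ zpowers abar := by
    intro q
    rw [zpowers_eq_top_of_prime_card hcardQ habar1]
    exact Subgroup.mem_top q
  have hord : orderOf abar = 3 := by
    apply orderOf_eq_prime _ habar1
    have := pow_card_eq_one' (G := ↥(centralizer ({c} : Set G)) ⧸
      (closure ({a, b, x} : Set G)).subgroupOf (centralizer ({c} : Set G))) (x := abar)
    rwa [hcardQ] at this
  set ω : ℂ := Complex.exp (2 * Real.pi * Complex.I / (3 : ℕ)) with hω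
  have hprim : IsPrimitiveRoot ω 3 := Complex.isPrimitiveRoot_exp 3 (by norm_num)
  have hω3 : ω ^ 3 = 1 := hprim.pow_eq_one
  have hω1 : ω ≠ 1 := hprim.ne_one (by norm_num)
  have hω0 : ω ≠ 0 := by
    intro h
    rw [h] at hω3
    norm_num at hω3
  set ωu : ℂˣ := Units.mk0 ω hω0 with hωu
  have hωu3 : ωu ^ 3 = 1 := by
    apply Units.ext
    simp [hωu, hω3]
  have hdvd : orderOf ωu ∣ orderOf abar := by
    rw [hord]; exact orderOf_dvd_of_pow_eq_one hωu3
  set f0 : (↥(centralizer ({c} : Set G)) ⧸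
      (closure ({a, b, x} : Set G)).subgroupOf (centralizer ({c} : Set G))) →* ℂˣ :=
    monoidHomOfForallMemZpowers hgen hdvd with hf0
  have hf0a : f0 abar = ωu := monoidHomOfForallMemZpowers_apply_gen hgen hdvd
  set f : ↥(centralizer ({c} : Set G)) →* ℂˣ := f0.comp (QuotientGroup.mk' _) with hf
  refine ⟨fun g => ((f g : ℂˣ) : ℂ), ω, hω1, hω3, ?_, ?_⟩
  · exact Cfsg.Agent.H4.isCharacter_of_isIrrCharacter (Cfsg.Agent.H82.linChar f).2
  · intro g w hw
    have hwC : w ∈ centralizer ({c} : Set G) := hAC hw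
    have hmkw : (QuotientGroup.mk (⟨w, hwC⟩ : centralizer ({c} : Set G)) :
        ↥(centralizer ({c} : Set G)) ⧸
          (closure ({a, b, x} : Set G)).subgroupOf (centralizer ({c} : Set G))) = 1 := by
      rw [QuotientGroup.eq_one_iff, Subgroup.mem_subgroupOf]; exact hw
    refine ⟨fun hx => ?_, fun hx => ?_, fun hx => ?_⟩
    · have hxe : g = ⟨w, hwC⟩ := Subtype.ext hx
      show ((f g : ℂˣ) : ℂ) = 1
      rw [hxe, hf, MonoidHom.comp_apply, QuotientGroup.mk'_apply, hmkw, map_one, Units.val_one]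
    · have hxe : g = ⟨c, haC⟩ * ⟨w, hwC⟩ := Subtype.ext hx
      show ((f g : ℂˣ) : ℂ) = ω
      rw [hxe, hf, MonoidHom.comp_apply, QuotientGroup.mk'_apply, QuotientGroup.mk_mul, hmkw,
        mul_one, ← habar, hf0a]
      rfl
    · have hxe : g = (⟨c, haC⟩ : centralizer ({c} : Set G))⁻¹ * ⟨w, hwC⟩ := Subtype.ext hx
      show ((f g : ℂˣ) : ℂ) = ω ^ 2
      rw [hxe, hf, MonoidHom.comp_apply, QuotientGroup.mk'_apply, QuotientGroup.mk_mul, hmkw,
        mul_one, QuotientGroup.mk_inv, ← habar, map_inv, hf0a, Units.val_inv_eq_inv_val]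
      show ω⁻¹ = ω ^ 2
      apply inv_eq_of_mul_eq_one_right
      rw [← pow_succ']
      exact hω3

end Cfsg.Agent.H53.Tm

universe u in
example (hD : Cfsg.Agent.H64.Tm.StD.{u}) (hC : Cfsg.Agent.H64.Tm.StCC.{u}) :
    Cfsg.Agent.H64.Tm.StLam.{u} := Cfsg.Agent.H53.Tm.lam hD hC
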