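import Cfsg.Agent.H72.ZasDefs

/-!
# S0690, piece CA1: the normalizer of `⟨t⟩` when the Sylow 2-subgroups are `Q₈`
(helper53 for helper72)
-/

set_option autoImplicit false

namespace Cfsg.Agent.H53.Zas

open Cfsg.Agent.H72.Zas

universe u

/-- in `Q₈` the centralizer of an element of order 4 is the cyclic group it generates. -/
theorem ca1_q8 : ∀ t₀ p₀ : QuaternionGroup 2, t₀ * t₀ ≠ 1 → p₀ * t₀ = t₀ * p₀ →
    p₀ = 1 ∨ p₀ = t₀ ∨ p₀ = t₀ * t₀ ∨ p₀ = t₀ * t₀ * t₀ := by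
  decide

section

variable {G : Type u} [Group G]

theorem ca1_orderOf_sq {g : G} (hg : orderOf g = 4) : orderOf (g * g) = 2 := by
  have h := orderOf_pow' g (n := 2) (by norm_num)
  rw [hg] at h
  rw [← pow_two, h]
  rfl

theorem ca1_orderOf_conj (s w : G) : orderOf (s * w * s⁻¹) = orderOf w := by
  have h := orderOf_injective (MulAut.conj s).toMonoidHom (MulAut.conj s).injective w
  simpa [MulAut.conj_apply] using h

theorem ca1_conj_comm {t s w : G} (hinv : s * t * s⁻¹ = t⁻¹) (hwt : w * t = t * w) :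
    (s * w * s⁻¹) * t = t * (s * w * s⁻¹) := by
  have h1 : s⁻¹ * t * s = t⁻¹ := by
    have h0 : s⁻¹ * t⁻¹ * s = t := by
      calc s⁻¹ * t⁻¹ * s = s⁻¹ * (s * t * s⁻¹) * s := by rw [hinv]
        _ = t := by group
    calc s⁻¹ * t * s = (s⁻¹ * t⁻¹ * s)⁻¹ := by group
      _ = t⁻¹ := by rw [h0]
  have h3 : s * t⁻¹ * s⁻¹ = t := by
    calc s * t⁻¹ * s⁻¹ = (s * t * s⁻¹)⁻¹ := by group
      _ = t := by rw [hinv]; group
  have hwt' : w * t⁻¹ = t⁻¹ * w := by
    have h1 : Commute w t := hwt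
    exact (Commute.inv_right_iff.mpr h1).eq
  calc (s * w * s⁻¹) * t = s * w * (s⁻¹ * t * s) * s⁻¹ := by group
    _ = s * (w * t⁻¹) * s⁻¹ := by rw [h1]; group
    _ = s * (t⁻¹ * w) * s⁻¹ := by rw [hwt']
    _ = (s * t⁻¹ * s⁻¹) * (s * w * s⁻¹) := by group
    _ = t * (s * w * s⁻¹) := by rw [h3]

end

/-- the centralizer of `t` is `⟨t⟩ × K` with `K` of odd order centralized by `s`. -/
theorem ca1_dec {G : Type u} [Group G] [Finite G] (hZ : ZasAx G) (S : Sylow 2 G)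
    (e : S ≃* QuaternionGroup 2) {t s x : G} (hF : Frame t s x) :
    ∀ c : G, c * t = t * c → ∃ (i : ℤ) (k : G), c = t ^ i * k ∧ Odd (orderOf k) ∧
      k * t = t * k ∧ k * s = s * k := by
  have htt : t * t ≠ 1 := by
    intro h
    have h2 := ca1_orderOf_sq hF.ot
    rw [h, orderOf_one] at h2
    omega
  have hz : t * t = s * s := hZ.invol _ _ (ca1_orderOf_sq hF.ot) (ca1_orderOf_sq hF.os)
  obtain ⟨C, hC⟩ : ∃ C : Subgroup G, C = Subgroup.centralizer {t} := ⟨_, rfl⟩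
  have hmemC : ∀ c : G, c ∈ C ↔ c * t = t * c := by
    intro c
    rw [hC, Subgroup.mem_centralizer_iff]
    constructor
    · intro h
      exact (h t (Set.mem_singleton t)).symm
    · intro h y hy
      rw [Set.mem_singleton_iff] at hy
      rw [hy]
      exact h.symm
  have htC : t ∈ C := (hmemC t).mpr rfl
  obtain ⟨t', ht'⟩ : ∃ t' : C, (t' : G) = t := ⟨⟨t, htC⟩, rfl⟩
  have hot' : orderOf t' = 4 := by
    rw [← hF.ot, ← ht', Subgroup.orderOf_coe]
  have hcomm' : ∀ c : C, Commute c t' := by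
    intro c
    have h1 : c * t' = t' * c :=
      Subtype.ext (by rw [Subgroup.coe_mul, Subgroup.coe_mul, ht']; exact (hmemC c).mp c.2)
    exact h1
  have hpg : IsPGroup 2 (Subgroup.zpowers t') :=
    IsPGroup.of_card (n := 2) (by rw [Nat.card_zpowers, hot']; norm_num)
  obtain ⟨P, hP⟩ := hpg.exists_le_sylow
  have hpg1 : IsPGroup 2 ((P : Subgroup C).map C.subtype) := P.isPGroup'.map _
  obtain ⟨S', hS'⟩ := hpg1.exists_le_sylow
  obtain ⟨g₀, hg₀⟩ := MulAction.exists_smul_eq G S S'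
  obtain ⟨e'⟩ : Nonempty (S' ≃* QuaternionGroup 2) := by
    rw [← hg₀]
    exact ⟨(Sylow.equivSMul S g₀).symm.trans e⟩
  have htS : t ∈ S' := by
    apply hS'
    exact ⟨t', hP (Subgroup.mem_zpowers t'), ht'⟩
  have hPz : ∀ p : C, p ∈ P → p ∈ Subgroup.zpowers t' := by
    intro p hp
    have hpS : (p : G) ∈ S' := hS' ⟨p, hp, rfl⟩
    have key : ∀ q : S', e' ⟨p, hpS⟩ = e' q → (p : G) = q :=
      fun q hq => congrArg Subtype.val (e'.injective hq)
    have hA : e' ⟨t, htS⟩ * e' ⟨t, htS⟩ ≠ 1 := by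
      rw [← map_mul]
      intro h
      have h2 := e'.injective (h.trans (map_one e').symm)
      exact htt (congrArg Subtype.val h2)
    have hB : e' ⟨p, hpS⟩ * e' ⟨t, htS⟩ = e' ⟨t, htS⟩ * e' ⟨p, hpS⟩ := by
      rw [← map_mul, ← map_mul]
      congr 1
      exact Subtype.ext ((hmemC p).mp p.2)
    rcases ca1_q8 _ _ hA hB with h1 | h1 | h1 | h1
    · have h2 : (p : G) = 1 := key 1 (by rw [h1, map_one])
      have h3 : p = 1 := Subtype.ext h2
      rw [h3]
      exact one_mem _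
    · have h2 : (p : G) = t := key ⟨t, htS⟩ h1
      have h3 : p = t' := Subtype.ext (by rw [h2, ht'])
      rw [h3]
      exact Subgroup.mem_zpowers _
    · have h2 : (p : G) = t * t := key (⟨t, htS⟩ * ⟨t, htS⟩) (by rw [h1, map_mul])
      have h3 : p = t' * t' := Subtype.ext (by rw [h2, Subgroup.coe_mul, ht'])
      rw [h3]
      exact mul_mem (Subgroup.mem_zpowers _) (Subgroup.mem_zpowers _)
    · have h2 : (p : G) = t * t * t :=
        key (⟨t, htS⟩ * ⟨t, htS⟩ * ⟨t, htS⟩) (by rw [h1, map_mul, map_mul])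
      have h3 : p = t' * t' * t' :=
        Subtype.ext (by rw [h2, Subgroup.coe_mul, Subgroup.coe_mul, ht'])
      rw [h3]
      exact mul_mem (mul_mem (Subgroup.mem_zpowers _) (Subgroup.mem_zpowers _))
        (Subgroup.mem_zpowers _)
  have hNC : Subgroup.normalizer (P : Set C) ≤ Subgroup.centralizer (P : Set C) := by
    intro c _
    rw [Subgroup.mem_centralizer_iff]
    intro p hp
    obtain ⟨k, rfl⟩ := Subgroup.mem_zpowers_iff.mp (hPz p hp)
    exact (((hcomm' c).zpow_right k).eq).symm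
  have hcompl := MonoidHom.ker_transferSylow_isComplement' P hNC
  have hodd := MonoidHom.not_dvd_card_ker_transferSylow P hNC
  obtain ⟨φ, hφ⟩ : ∃ φ : C →* P, φ = MonoidHom.transferSylow P hNC := ⟨_, rfl⟩
  rw [← hφ] at hcompl hodd
  have ha : ∀ c : C, φ c = 1 → Odd (orderOf (c : G)) := by
    intro c hc
    rw [Subgroup.orderOf_coe]
    have h1 : orderOf c ∣ Nat.card φ.ker :=
      Subgroup.orderOf_dvd_natCard _ (MonoidHom.mem_ker.mpr hc)
    rw [← Nat.not_even_iff_odd, even_iff_two_dvd]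
    intro h2
    exact hodd (h2.trans h1)
  have hb : ∀ c : C, Odd (orderOf (c : G)) → φ c = 1 := by
    intro c hc
    rw [Subgroup.orderOf_coe] at hc
    have h1 : orderOf (φ c) ∣ orderOf c := orderOf_map_dvd φ c
    obtain ⟨k, hk⟩ := P.isPGroup' (φ c)
    have h2 : orderOf (φ c) ∣ 2 ^ k := orderOf_dvd_of_pow_eq_one hk
    have h3 : Odd (orderOf (φ c)) := by
      obtain ⟨d, hd⟩ := h1
      rw [hd] at hc
      exact (Nat.odd_mul.mp hc).1
    have h4 : orderOf (φ c) = 1 := by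
      have h5 : Nat.Coprime (orderOf (φ c)) (2 ^ k) :=
        Nat.Coprime.pow_right k (Nat.coprime_two_right.mpr h3)
      exact Nat.Coprime.eq_one_of_dvd h5 h2
    exact orderOf_eq_one_iff.mp h4
  have hc : ∀ c : C, ∃ k : C, φ k = 1 ∧ ∃ i : ℤ, c = k * t' ^ i := by
    intro c
    obtain ⟨⟨k, p⟩, hkp⟩ := hcompl.2 c
    obtain ⟨i, hi⟩ := Subgroup.mem_zpowers_iff.mp (hPz p p.2)
    exact ⟨k, MonoidHom.mem_ker.mp k.2, i, by rw [hi]; exact hkp.symm⟩
  have hs : ∀ k : C, φ k = 1 → (k : G) * s = s * (k : G) := by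
    intro k hk
    have hkt : (k : G) * t = t * (k : G) := (hmemC k).mp k.2
    have hk'C : s * (k : G) * s⁻¹ ∈ C := (hmemC _).mpr (ca1_conj_comm hF.inv hkt)
    have hk'o : Odd (orderOf (s * (k : G) * s⁻¹)) := by
      rw [ca1_orderOf_conj]
      exact ha k hk
    have hk' : φ ⟨_, hk'C⟩ = 1 := hb ⟨_, hk'C⟩ hk'o
    have hu : φ (k⁻¹ * ⟨_, hk'C⟩) = 1 := by
      rw [map_mul, map_inv, hk, hk', inv_one, one_mul]
    have huo := ha _ hu
    have hut := (hmemC _).mp (k⁻¹ * ⟨_, hk'C⟩ : C).2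
    have hcoe : ((k⁻¹ * ⟨_, hk'C⟩ : C) : G) = (k : G)⁻¹ * (s * (k : G) * s⁻¹) := rfl
    rw [hcoe] at huo hut
    have hzk : (s * s) * (k : G) = (k : G) * (s * s) := by
      rw [← hz]
      calc t * t * (k : G) = t * (t * (k : G)) := by group
        _ = t * ((k : G) * t) := by rw [hkt]
        _ = (t * (k : G)) * t := by group
        _ = ((k : G) * t) * t := by rw [hkt]
        _ = (k : G) * (t * t) := by group
    have hsu : s * ((k : G)⁻¹ * (s * (k : G) * s⁻¹)) * s⁻¹ =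
        ((k : G)⁻¹ * (s * (k : G) * s⁻¹))⁻¹ := by
      calc s * ((k : G)⁻¹ * (s * (k : G) * s⁻¹)) * s⁻¹
          = s * (k : G)⁻¹ * s⁻¹ * ((s * s) * (k : G)) * s⁻¹ * s⁻¹ := by group
        _ = s * (k : G)⁻¹ * s⁻¹ * ((k : G) * (s * s)) * s⁻¹ * s⁻¹ := by rw [hzk]
        _ = ((k : G)⁻¹ * (s * (k : G) * s⁻¹))⁻¹ := by group
    have h1 := hZ.u2 t s x _ hF huo hut hsu
    have h2 : s * (k : G) * s⁻¹ = (k : G) := by
      calc s * (k : G) * s⁻¹ = (k : G) * ((k : G)⁻¹ * (s * (k : G) * s⁻¹)) := by group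
        _ = (k : G) := by rw [h1, mul_one]
    calc (k : G) * s = (s * (k : G) * s⁻¹) * s := by rw [h2]
      _ = s * (k : G) := by group
  intro c hct
  obtain ⟨k, hk, i, hi⟩ := hc ⟨c, (hmemC c).mpr hct⟩
  refine ⟨i, (k : G), ?_, ha k hk, (hmemC k).mp k.2, hs k hk⟩
  have h1 : c = (k : G) * t ^ i := by
    have h2 := congrArg Subtype.val hi
    rw [Subgroup.coe_mul, Subgroup.coe_zpow, ht'] at h2
    exact h2
  rw [h1]
  have h3 : Commute (k : G) t := (hmemC k).mp k.2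
  exact (h3.zpow_right i).eq

theorem stCa1 : StCa1.{u} := by
  intro G _ _ hZ S ⟨e⟩ t s x hF g hg
  have hdec := ca1_dec hZ S e hF
  have htcl : t ∈ Subgroup.closure ({t, s} : Set G) := Subgroup.subset_closure (by simp)
  have hscl : s ∈ Subgroup.closure ({t, s} : Set G) := Subgroup.subset_closure (by simp)
  rcases hg with hg | hg
  · have hgt : g * t = t * g := by
      calc g * t = (g * t * g⁻¹) * g := by group
        _ = t * g := by rw [hg]
    obtain ⟨i, k, h1, h2, h3, h4⟩ := hdec g hgt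
    exact ⟨t ^ i, k, h1, zpow_mem htcl i, h2, h3, h4⟩
  · have h0 : s⁻¹ * t⁻¹ * s = t := by
      calc s⁻¹ * t⁻¹ * s = s⁻¹ * (s * t * s⁻¹) * s := by rw [hF.inv]
        _ = t := by group
    have hct : (s⁻¹ * g) * t = t * (s⁻¹ * g) := by
      calc (s⁻¹ * g) * t = s⁻¹ * (g * t * g⁻¹) * g := by group
        _ = (s⁻¹ * t⁻¹ * s) * (s⁻¹ * g) := by rw [hg]; group
        _ = t * (s⁻¹ * g) := by rw [h0]
    obtain ⟨i, k, h1, h2, h3, h4⟩ := hdec (s⁻¹ * g) hct
    refine ⟨s * t ^ i, k, ?_, mul_mem hscl (zpow_mem htcl i), h2, h3, h4⟩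
    calc g = s * (s⁻¹ * g) := by group
      _ = s * t ^ i * k := by rw [h1]; group

end Cfsg.Agent.H53.Zas
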