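import Cfsg.Agent.H72.ZasDefs

/-!
# S0690, piece CB: the Sylow 2-subgroups cannot have order ≥ 16 (helper53 for helper72)
-/

set_option autoImplicit false

namespace Cfsg.Agent.H53.Zas

open Cfsg.Agent.H72.Zas

universe u

section

variable {G : Type u} [Group G]

theorem cb_orderOf_sq {g : G} (hg : orderOf g = 4) : orderOf (g * g) = 2 := by
  have h := orderOf_pow' g (n := 2) (by norm_num)
  rw [hg] at h
  rw [← pow_two, h]
  rfl

theorem cb_orderOf_conj (s w : G) : orderOf (s * w * s⁻¹) = orderOf w := by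
  have h := orderOf_injective (MulAut.conj s).toMonoidHom (MulAut.conj s).injective w
  simpa [MulAut.conj_apply] using h

/-- sign changes preserve the quaternion relation. -/
theorem cb_inv_rel {t s t' s' : G} (h : s * t * s⁻¹ = t⁻¹) (ht : t' = t ∨ t' = t⁻¹)
    (hs : s' = s ∨ s' = s⁻¹) : s' * t' * s'⁻¹ = t'⁻¹ := by
  have h1 : s⁻¹ * t⁻¹ * s = t := by
    calc s⁻¹ * t⁻¹ * s = s⁻¹ * (s * t * s⁻¹) * s := by rw [h]
      _ = t := by group
  have h2 : s⁻¹ * t * s = t⁻¹ := by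
    calc s⁻¹ * t * s = (s⁻¹ * t⁻¹ * s)⁻¹ := by group
      _ = t⁻¹ := by rw [h1]
  have h3 : s * t⁻¹ * s⁻¹ = t := by
    calc s * t⁻¹ * s⁻¹ = (s * t * s⁻¹)⁻¹ := by group
      _ = t := by rw [h]; group
  rcases ht with rfl | rfl <;> rcases hs with rfl | rfl
  · exact h
  · rw [inv_inv]; exact h2
  · rw [inv_inv]; exact h3
  · rw [inv_inv, inv_inv]; exact h1

theorem cb_comm_sign {t t' w : G} (ht : t' = t ∨ t' = t⁻¹) (h : w * t' = t' * w) :
    w * t = t * w := by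
  rcases ht with rfl | rfl
  · exact h
  · have h1 : Commute w t⁻¹ := h
    exact (Commute.inv_right_iff.mp h1).eq

theorem cb_comm_sign' {t t' w : G} (ht : t' = t ∨ t' = t⁻¹) (h : w * t = t * w) :
    w * t' = t' * w := by
  rcases ht with rfl | rfl
  · exact h
  · have h1 : Commute w t := h
    exact (Commute.inv_right_iff.mpr h1).eq

/-- the output of `Act` is a frame, or yields an element of order 3 centralizing the pair. -/
theorem cb_frame_or_w (h : ZasAx G) {t s y : G} {j : ℕ}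
    (ht : orderOf t = 4) (hs : orderOf s = 4) (hinv : s * t * s⁻¹ = t⁻¹)
    (hyt : y * t * y⁻¹ = s) (hys : y * s * y⁻¹ = t * s) (hy : orderOf y = 3 ^ j) :
    Frame t s y ∨ ∃ w : G, orderOf w = 3 ∧ w * t = t * w ∧ w * s = s * w := by
  have hz : t * t = s * s := h.invol _ _ (cb_orderOf_sq ht) (cb_orderOf_sq hs)
  have hyts : y * (t * s) * y⁻¹ = t := by
    have h1 : y * (t * s) * y⁻¹ = (y * t * y⁻¹) * (y * s * y⁻¹) := by group
    rw [h1, hyt, hys]
    have h2 : s * t = t⁻¹ * s := by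
      calc s * t = (s * t * s⁻¹) * s := by group
        _ = t⁻¹ * s := by rw [hinv]
    calc s * (t * s) = (s * t) * s := by group
      _ = t⁻¹ * (s * s) := by rw [h2]; group
      _ = t⁻¹ * (t * t) := by rw [hz]
      _ = t := by group
  have e3 : y ^ 3 = y * y * y := by rw [pow_succ, pow_succ, pow_one]
  have hy3t : Commute (y ^ 3) t := by
    have h3 : (y * y * y) * t * (y * y * y)⁻¹ = t := by
      calc (y * y * y) * t * (y * y * y)⁻¹ = y * (y * (y * t * y⁻¹) * y⁻¹) * y⁻¹ := by group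
        _ = t := by rw [hyt, hys, hyts]
    rw [e3]
    calc (y * y * y) * t = ((y * y * y) * t * (y * y * y)⁻¹) * (y * y * y) := by group
      _ = t * (y * y * y) := by rw [h3]
  have hy3s : Commute (y ^ 3) s := by
    have h3 : (y * y * y) * s * (y * y * y)⁻¹ = s := by
      calc (y * y * y) * s * (y * y * y)⁻¹ = y * (y * (y * s * y⁻¹) * y⁻¹) * y⁻¹ := by group
        _ = s := by rw [hys, hyts, hyt]
    rw [e3]
    calc (y * y * y) * s = ((y * y * y) * s * (y * y * y)⁻¹) * (y * y * y) := by group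
      _ = s * (y * y * y) := by rw [h3]
  rcases j with _ | _ | j
  · exfalso
    rw [pow_zero, orderOf_eq_one_iff] at hy
    subst hy
    have hts : t = s := by simpa using hyt
    subst hts
    have h3 : t = t⁻¹ := by simpa using hinv
    have h4 : t * t = 1 := by
      calc t * t = t * t⁻¹ := by rw [← h3]
        _ = 1 := by group
    have h5 := cb_orderOf_sq ht
    rw [h4, orderOf_one] at h5
    omega
  · left
    exact ⟨ht, hs, hinv, by simpa using hy, hyt, hys⟩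
  · right
    have hpow : y ^ (3 ^ (j + 1)) = (y ^ 3) ^ (3 ^ j) := by
      rw [← pow_mul, pow_succ']
    refine ⟨y ^ (3 ^ (j + 1)), ?_, ?_, ?_⟩
    · rw [orderOf_pow_of_dvd (by positivity) (by rw [hy]; exact pow_dvd_pow 3 (by omega)), hy]
      have h3 : 3 ^ (j + 1 + 1) = 3 * 3 ^ (j + 1) := by ring
      rw [h3]
      exact Nat.mul_div_cancel _ (by positivity)
    · rw [hpow]
      exact (hy3t.pow_left _).eq
    · rw [hpow]
      exact (hy3s.pow_left _).eq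

/-- an element of order 3 centralizing `t` centralizes the whole frame. -/
theorem cb_comm_of_frame (h : ZasAx G)
    (hLU : ∀ t : G, orderOf t = 4 → ∀ x y : G, orderOf x = 3 → orderOf y = 3 → x * t = t * x →
      y * t = t * y → y ∈ Subgroup.zpowers x)
    {t s y w : G} (hF : Frame t s y) (hw : orderOf w = 3) (hwt : w * t = t * w) :
    w * s = s * w := by
  have hu : orderOf (s * w * s⁻¹) = 3 := by rw [cb_orderOf_conj, hw]
  have h1 : s⁻¹ * t * s = t⁻¹ := by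
    have h := cb_inv_rel hF.inv (Or.inl rfl) (Or.inr rfl : s⁻¹ = s ∨ s⁻¹ = s⁻¹)
    rwa [inv_inv] at h
  have hwt' : w * t⁻¹ = t⁻¹ * w := cb_comm_sign' (Or.inr rfl) hwt
  have hut : (s * w * s⁻¹) * t = t * (s * w * s⁻¹) := by
    have h3 : s * t⁻¹ * s⁻¹ = t := by
      calc s * t⁻¹ * s⁻¹ = (s * t * s⁻¹)⁻¹ := by group
        _ = t := by rw [hF.inv]; group
    calc (s * w * s⁻¹) * t = s * w * (s⁻¹ * t * s) * s⁻¹ := by group
      _ = s * (w * t⁻¹) * s⁻¹ := by rw [h1]; group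
      _ = s * (t⁻¹ * w) * s⁻¹ := by rw [hwt']
      _ = (s * t⁻¹ * s⁻¹) * (s * w * s⁻¹) := by group
      _ = t * (s * w * s⁻¹) := by rw [h3]
  obtain ⟨k, hk⟩ := Subgroup.mem_zpowers_iff.mp (hLU t hF.ot w _ hw hu hwt hut)
  rw [← zpow_mod_orderOf, hw] at hk
  have hk0 : 0 ≤ k % ((3 : ℕ) : ℤ) := Int.emod_nonneg _ (by norm_num)
  have hk3 : k % ((3 : ℕ) : ℤ) < 3 := Int.emod_lt_of_pos _ (by norm_num)
  have hw3 : w ^ 3 = 1 := by rw [← hw]; exact pow_orderOf_eq_one w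
  have hcases : k % ((3 : ℕ) : ℤ) = 0 ∨ k % ((3 : ℕ) : ℤ) = 1 ∨ k % ((3 : ℕ) : ℤ) = 2 := by omega
  rcases hcases with h0 | h0 | h0
  · rw [h0, zpow_zero] at hk
    rw [← hk, orderOf_one] at hu
    omega
  · rw [h0, zpow_one] at hk
    calc w * s = (s * w * s⁻¹) * s := by rw [← hk]
      _ = s * w := by group
  · exfalso
    have h2 : w ^ (2 : ℤ) = w⁻¹ := by
      have : w ^ (2 : ℤ) = w ^ 2 := by norm_cast
      rw [this]
      calc w ^ 2 = w ^ 3 * w⁻¹ := by group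
        _ = w⁻¹ := by rw [hw3, one_mul]
    rw [h0, h2] at hk
    have h4 := h.u2 t s y w hF (by rw [hw]; decide) hwt hk.symm
    rw [h4, orderOf_one] at hw
    omega

end

/-- the quaternion group facts used. -/
theorem cb_quat (n : ℕ) (hn : 2 ≤ n) :
    orderOf (QuaternionGroup.a 1 : QuaternionGroup (2 ^ n)) = 4 * 2 ^ (n - 1) ∧
    orderOf (QuaternionGroup.xa 0 : QuaternionGroup (2 ^ n)) = 4 ∧
    orderOf ((QuaternionGroup.a 1 : QuaternionGroup (2 ^ n)) * QuaternionGroup.xa 0) = 4 ∧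
    (QuaternionGroup.xa 0 : QuaternionGroup (2 ^ n)) * QuaternionGroup.a 1 *
      (QuaternionGroup.xa 0)⁻¹ = (QuaternionGroup.a 1)⁻¹ ∧
    ∀ g : QuaternionGroup (2 ^ n), ∃ k : ℕ, g = (QuaternionGroup.a 1) ^ k ∨
      g = QuaternionGroup.xa 0 * (QuaternionGroup.a 1) ^ k := by
  have : NeZero (2 ^ n) := ⟨by positivity⟩
  have : NeZero (2 * 2 ^ n) := ⟨by positivity⟩
  refine ⟨?_, QuaternionGroup.orderOf_xa _, ?_, ?_, ?_⟩
  · rw [QuaternionGroup.orderOf_a_one]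
    obtain ⟨k, rfl⟩ : ∃ k, n = k + 1 := ⟨n - 1, by omega⟩
    simp only [Nat.add_sub_cancel]
    ring
  · rw [QuaternionGroup.a_mul_xa]
    exact QuaternionGroup.orderOf_xa _
  · rw [mul_inv_eq_iff_eq_mul, eq_inv_mul_iff_mul_eq, QuaternionGroup.xa_mul_a,
      QuaternionGroup.a_mul_xa]
    simp
  · intro g
    rcases g with i | i
    · refine ⟨i.val, Or.inl ?_⟩
      rw [QuaternionGroup.a_one_pow, ZMod.natCast_zmod_val]
    · refine ⟨i.val, Or.inr ?_⟩
      rw [QuaternionGroup.a_one_pow, ZMod.natCast_zmod_val, QuaternionGroup.xa_mul_a, zero_add]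

theorem stCb : StCb.{u} := by
  intro G _ _ hZ S n hn ⟨e⟩ hAct hG2 hLU
  obtain ⟨hQ1, hQ2, hQ3, hQ4, hQ5⟩ := cb_quat n hn
  let f : QuaternionGroup (2 ^ n) →* G := (S : Subgroup G).subtype.comp e.symm.toMonoidHom
  have hf : Function.Injective f := by
    intro x y hxy
    have h1 : (e.symm x : G) = (e.symm y : G) := hxy
    exact e.symm.injective (Subtype.ext h1)
  obtain ⟨a', ha'⟩ : ∃ a' : G, a' = f (QuaternionGroup.a 1) := ⟨_, rfl⟩
  obtain ⟨b', hb'⟩ : ∃ b' : G, b' = f (QuaternionGroup.xa 0) := ⟨_, rfl⟩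
  have hoa : orderOf a' = 4 * 2 ^ (n - 1) := by rw [ha', orderOf_injective f hf, hQ1]
  have hob : orderOf b' = 4 := by rw [hb', orderOf_injective f hf, hQ2]
  have hoab : orderOf (a' * b') = 4 := by
    rw [ha', hb', ← map_mul, orderOf_injective f hf, hQ3]
  have hba : b' * a' * b'⁻¹ = a'⁻¹ := by
    rw [ha', hb', ← map_inv, ← map_mul, ← map_mul, hQ4, map_inv]
  have hS : ∀ g ∈ S, ∃ k : ℕ, g = a' ^ k ∨ g = b' * a' ^ k := by
    intro g hg
    have h1 : g = f (e ⟨g, hg⟩) := by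
      change g = ((e.symm (e ⟨g, hg⟩) : S) : G)
      rw [MulEquiv.symm_apply_apply]
    obtain ⟨k, hk | hk⟩ := hQ5 (e ⟨g, hg⟩)
    · exact ⟨k, Or.inl (by rw [h1, hk, map_pow, ha'])⟩
    · exact ⟨k, Or.inr (by rw [h1, hk, map_mul, map_pow, ha', hb'])⟩
  -- the final contradiction
  have hfinal : ∀ w : G, orderOf w = 3 → w * b' = b' * w → w * (a' * b') = (a' * b') * w →
      False := by
    intro w hw hwb hwab
    have hwa : Commute w a' := by
      have h1 : Commute w (a' * b') := hwab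
      have h2 : Commute w b' := hwb
      have h3 : Commute w (a' * b' * b'⁻¹) := h1.mul_right h2.inv_right
      rwa [mul_inv_cancel_right] at h3
    apply hG2 w hw
    intro g hg
    obtain ⟨k, hk | hk⟩ := hS g hg
    · rw [hk]
      exact ((hwa.pow_right k).symm).eq
    · rw [hk]
      have h2 : Commute w b' := hwb
      exact ((h2.mul_right (hwa.pow_right k)).symm).eq
  obtain ⟨m, hm⟩ : ∃ m : ℕ, m = 2 ^ (n - 1) := ⟨_, rfl⟩
  rw [← hm] at hoa
  have hme : Even m := by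
    rw [hm]
    obtain ⟨k, rfl⟩ : ∃ k, n = k + 2 := ⟨n - 2, by omega⟩
    have : k + 2 - 1 = k + 1 := by omega
    rw [this, pow_succ]
    exact even_two.mul_left _
  have hm0 : m ≠ 0 := by rw [hm]; positivity
  obtain ⟨t, ht⟩ : ∃ t : G, t = a' ^ m := ⟨_, rfl⟩
  have hot : orderOf t = 4 := by
    rw [ht, orderOf_pow_of_dvd hm0 (by rw [hoa]; exact Dvd.intro_left 4 rfl), hoa]
    exact Nat.mul_div_cancel _ (Nat.pos_of_ne_zero hm0)
  have hbt : b' * t * b'⁻¹ = t⁻¹ := by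
    rw [ht, ← inv_pow, ← hba, conj_pow]
  have hat : Commute a' t := by
    rw [ht]
    exact Commute.pow_right (Commute.refl a') m
  have habt : (a' * b') * t * (a' * b')⁻¹ = t⁻¹ := by
    calc (a' * b') * t * (a' * b')⁻¹ = a' * (b' * t * b'⁻¹) * a'⁻¹ := by group
      _ = a' * t⁻¹ * a'⁻¹ := by rw [hbt]
      _ = t⁻¹ * a' * a'⁻¹ := by rw [(hat.inv_right).eq]
      _ = t⁻¹ := by group
  obtain ⟨y₁, t₁, s₁, ht₁, hs₁, hyt₁, hys₁, j₁, hj₁⟩ := hAct t b' hot hob hbt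
  obtain ⟨y₂, t₂, s₂, ht₂, hs₂, hyt₂, hys₂, j₂, hj₂⟩ := hAct t (a' * b') hot hoab habt
  have hot₁ : orderOf t₁ = 4 := by
    rcases ht₁ with rfl | rfl
    · exact hot
    · rw [orderOf_inv]; exact hot
  have hot₂ : orderOf t₂ = 4 := by
    rcases ht₂ with rfl | rfl
    · exact hot
    · rw [orderOf_inv]; exact hot
  have hos₁ : orderOf s₁ = 4 := by
    rcases hs₁ with rfl | rfl
    · exact hob
    · rw [orderOf_inv]; exact hob
  have hos₂ : orderOf s₂ = 4 := by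
    rcases hs₂ with rfl | rfl
    · exact hoab
    · rw [orderOf_inv]; exact hoab
  have hinv₁ : s₁ * t₁ * s₁⁻¹ = t₁⁻¹ := cb_inv_rel hbt ht₁ hs₁
  have hinv₂ : s₂ * t₂ * s₂⁻¹ = t₂⁻¹ := cb_inv_rel habt ht₂ hs₂
  rcases cb_frame_or_w hZ hot₁ hos₁ hinv₁ hyt₁ hys₁ hj₁ with hF₁ | ⟨w₁, hw₁, hwt₁, hws₁⟩ <;>
    rcases cb_frame_or_w hZ hot₂ hos₂ hinv₂ hyt₂ hys₂ hj₂ with hF₂ | ⟨w₂, hw₂, hwt₂, hws₂⟩
  · exact hZ.caseB a' b' t₁ s₁ y₁ t₂ s₂ y₂ m hoa hme hob hba (ht ▸ ht₁) hs₁ (ht ▸ ht₂) hs₂ hF₁ hF₂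
  · -- `w₂` commutes with `t`, `a' * b'`, hence with `t₁`, hence with `s₁`, hence with `b'`
    have h1 : w₂ * t = t * w₂ := cb_comm_sign ht₂ hwt₂
    have h2 : w₂ * t₁ = t₁ * w₂ := cb_comm_sign' ht₁ h1
    have h3 : w₂ * s₁ = s₁ * w₂ := cb_comm_of_frame hZ hLU hF₁ hw₂ h2
    exact hfinal w₂ hw₂ (cb_comm_sign hs₁ h3) (cb_comm_sign hs₂ hws₂)
  · have h1 : w₁ * t = t * w₁ := cb_comm_sign ht₁ hwt₁
    have h2 : w₁ * t₂ = t₂ * w₁ := cb_comm_sign' ht₂ h1
    have h3 : w₁ * s₂ = s₂ * w₁ := cb_comm_of_frame hZ hLU hF₂ hw₁ h2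
    exact hfinal w₁ hw₁ (cb_comm_sign hs₁ hws₁) (cb_comm_sign hs₂ h3)
  · have h1 : w₁ * t = t * w₁ := cb_comm_sign ht₁ hwt₁
    have h2 : w₂ * t = t * w₂ := cb_comm_sign ht₂ hwt₂
    obtain ⟨k, hk⟩ := Subgroup.mem_zpowers_iff.mp (hLU t hot w₁ w₂ hw₁ hw₂ h1 h2)
    have h3 : Commute w₁ b' := cb_comm_sign hs₁ hws₁
    have h4 : w₂ * b' = b' * w₂ := by
      rw [← hk]
      exact (h3.zpow_left k).eq
    exact hfinal w₂ hw₂ h4 (cb_comm_sign hs₂ hws₂)

end Cfsg.Agent.H53.Zas
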